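import Cfsg.Agent.MaxSub.TensorPow.SelMain
import Cfsg.Agent.MaxSub.TensorPow.Classify
import Cfsg.Agent.MaxSub.TensorPow.Full

/-!
Induction on the number of factors: a group containing the transvections of every factor (and the
permutations, for at least three factors) is monomial or contains every elementary transvection.
-/

set_option autoImplicit false
set_option linter.unusedSectionVars false
set_option linter.unusedSimpArgs false
set_option linter.style.haveILetI false

namespace Cfsg.Agent.MaxSub.TensorPow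

open Module Matrix Cfsg.Agent.MaxSub.ExtField Cfsg.Agent.GeoClasses

variable {F : Type*} [Field F] [Finite F] {m t : ℕ}

/-- The conjugate of `G` by a permutation of the factors. -/
def conjG (σ : Equiv.Perm (Fin t)) (G : Subgroup (Ten F m t ≃ₗ[F] Ten F m t)) :
    Subgroup (Ten F m t ≃ₗ[F] Ten F m t) :=
  G.map (MulAut.conj (perm F m σ)).toMonoidHom

lemma perm_inv (σ : Equiv.Perm (Fin t)) : (perm F m σ)⁻¹ = perm F m σ.symm := by
  refine inv_eq_of_mul_eq_one_right (LinearEquiv.toLinearMap_injective (ext_pvec fun us => ?_))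
  simp [perm_pvec]

lemma perm_pureMat (σ : Equiv.Perm (Fin t)) (A : Fin t → Matrix (Fin m) (Fin m) F)
    (X : Ten F m t) :
    perm F m σ (pureMat A *ᵥ X) = pureMat (fun i => A (σ.symm i)) *ᵥ perm F m σ X := by
  refine LinearMap.congr_fun (ext_pvec (f := (perm F m σ).toLinearMap ∘ₗ Matrix.toLin' (pureMat A))
    (g := Matrix.toLin' (pureMat fun i => A (σ.symm i)) ∘ₗ (perm F m σ).toLinearMap) fun us => ?_) X
  simp [pureMat_pvec, perm_pvec]

lemma mem_conjG {σ : Equiv.Perm (Fin t)} {G : Subgroup (Ten F m t ≃ₗ[F] Ten F m t)}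
    {g : Ten F m t ≃ₗ[F] Ten F m t} (hg : g ∈ G) :
    perm F m σ * g * (perm F m σ)⁻¹ ∈ conjG σ G :=
  ⟨g, hg, rfl⟩

lemma mem_conjG_pureMat {σ : Equiv.Perm (Fin t)} {G : Subgroup (Ten F m t ≃ₗ[F] Ten F m t)}
    {A : Fin t → Matrix (Fin m) (Fin m) F} (h : Mem G (Matrix.toLin' (pureMat A))) :
    Mem (conjG σ G) (Matrix.toLin' (pureMat fun i => A (σ.symm i))) := by
  obtain ⟨g, hg, hgx⟩ := h
  refine ⟨_, mem_conjG hg, fun X => ?_⟩
  rw [LinearEquiv.mul_apply, LinearEquiv.mul_apply, hgx, map_add, self_inv_apply,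
    Matrix.toLin'_apply, perm_pureMat, self_inv_apply, Matrix.toLin'_apply]

lemma base_conjG {G : Subgroup (Ten F m t ≃ₗ[F] Ten F m t)} (hB : Base G) (σ : Equiv.Perm (Fin t)) :
    Base (conjG σ G) := fun j u φ h => by
  have := mem_conjG_pureMat (σ := σ) (hB (σ.symm j) u φ h)
  convert this using 3
  rw [pos]
  congr 1
  funext i
  rcases eq_or_ne i j with rfl | hi
  · simp
  · simp [Function.update_of_ne hi, Function.update_of_ne (σ.symm.injective.ne hi)]

lemma perms_conjG {G : Subgroup (Ten F m t ≃ₗ[F] Ten F m t)} (hP : Perms G) (σ : Equiv.Perm (Fin t)) :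
    Perms (conjG σ G) := fun ρ => by
  obtain ⟨g, hg, A, hA⟩ := hP (σ⁻¹ * ρ * σ)
  refine ⟨_, mem_conjG hg, ?_⟩
  have h := ((wit_perm (F := F) (m := m) σ).mul hA).mul (wit_perm σ.symm)
  rw [← perm_inv] at h
  rw [show σ.symm.symm * (σ⁻¹ * ρ * σ * σ.symm) = ρ by
    rw [Equiv.symm_symm, show σ.symm = σ⁻¹ from rfl]; group] at h
  exact ⟨_, h⟩

lemma elem_of_conjG {G : Subgroup (Ten F m t ≃ₗ[F] Ten F m t)} {σ : Equiv.Perm (Fin t)}
    (h : Elem (conjG σ G)) : Elem G := fun x y hxy c => by
  classical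
  set e := Equiv.arrowCongr σ.symm (Equiv.refl (Fin m)) with he
  obtain ⟨_, ⟨g, hg, rfl⟩, hgx⟩ := h (e.symm x) (e.symm y) (e.symm.injective.ne hxy) c
  refine ⟨g, hg, fun X => (perm F m σ).injective ?_⟩
  have h1 := hgx (perm F m σ X)
  rw [MulEquiv.coe_toMonoidHom, MulAut.conj_apply, LinearEquiv.mul_apply, LinearEquiv.mul_apply,
    inv_apply_self] at h1
  rw [h1, map_add, add_right_inj]
  funext z
  show (Matrix.single (e.symm x) (e.symm y) c *ᵥ perm F m σ X) z = (Matrix.single x y c *ᵥ X) (e z)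
  simp only [Matrix.single_mulVec, Function.update_apply, Pi.zero_apply]
  rw [show perm F m σ X (e.symm y) = X y from congrArg X (e.apply_symm_apply y)]
  simp [Equiv.eq_symm_apply, eq_comm]

/-- Base elements move any line of the first factor to any other. -/
lemma exists_mover {G : Subgroup (Ten F m (t + 1) ≃ₗ[F] Ten F m (t + 1))} (hB : Base G)
    {v v' : Fin m → F} (hv : v ≠ 0) (hv' : v' ≠ 0) :
    ∃ r ∈ G, r ∈ monomial F m (t + 1) ∧ ∀ w, toS F m t r (ins v' w) ∈ line (Ten F m t) v := by
  by_cases h : v' ∈ F ∙ (v - v')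
  · obtain ⟨c, hc⟩ := Submodule.mem_span_singleton.1 h
    refine ⟨1, G.one_mem, one_mem _, fun w => ?_⟩
    rw [map_one]
    have hc0 : c ≠ 0 := fun h0 => hv' (by rw [← hc, h0, zero_smul])
    have hv1 : (1 + c) • v' = c • v := by
      have e : c • v - c • v' = v' := by rwa [← smul_sub]
      rw [add_smul, one_smul]; conv_lhs => arg 1; rw [← e]
      abel
    have h1 : 1 + c ≠ 0 := fun h0 => by
      rw [h0, zero_smul] at hv1
      exact hv ((smul_eq_zero.1 hv1.symm).resolve_left hc0)
    refine ⟨((1 + c)⁻¹ * c) • w, ?_⟩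
    rw [map_smul, ← ins_smul, ← smul_smul, ← hv1, inv_smul_smul₀ h1]
    rfl
  · obtain ⟨φ, hφ, hφu⟩ := exists_perp h
    have hu := hφu _ (Submodule.mem_span_singleton_self _)
    obtain ⟨r, hr, hrx⟩ := hB 0 (v - v') φ hu
    refine ⟨r, hr, pos_mem_monomial hrx, fun w => ⟨w, ?_⟩⟩
    rw [toS_apply, hrx, map_add, LinearEquiv.apply_symm_apply, Matrix.toLin'_apply, root_slice,
      LinearEquiv.apply_symm_apply, root_apply, ev_ins, hφ, one_smul, LinearMap.id_apply, ins_sub]
    abel

/-- The maps of the last factors occurring in `G`. -/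
def tailGroup (G : Subgroup (Ten F m (t + 1) ≃ₗ[F] Ten F m (t + 1))) :
    Subgroup (Ten F m t ≃ₗ[F] Ten F m t) :=
  let S : Submonoid (Ten F m t ≃ₗ[F] Ten F m t) :=
    { carrier := {κ | ∃ g ∈ G, ∃ B : Matrix (Fin m) (Fin m) F,
        ∀ u w, toS F m t g (ins u w) = ins (B *ᵥ u) (κ w)}
      one_mem' := ⟨1, G.one_mem, 1, fun u w => by simp⟩
      mul_mem' := by
        rintro κ κ' ⟨g, hg, B, h⟩ ⟨g', hg', B', h'⟩
        exact ⟨g * g', G.mul_mem hg hg', B * B', fun u w => by
          rw [map_mul, LinearEquiv.mul_apply, h', h, Matrix.mulVec_mulVec, LinearEquiv.mul_apply]⟩ }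
  { S with
    inv_mem' := fun {κ} hκ => by
      have : κ⁻¹ = κ ^ (orderOf κ - 1) := by
        rw [inv_eq_iff_mul_eq_one, ← pow_succ', Nat.sub_add_cancel (orderOf_pos κ),
          pow_orderOf_eq_one]
      show κ⁻¹ ∈ S
      rw [this]
      exact S.pow_mem hκ _ }

lemma base_tailGroup (hm : 0 < m) {G : Subgroup (Ten F m (t + 1) ≃ₗ[F] Ten F m (t + 1))} (hB : Base G) :
    Base (tailGroup G) := fun j u φ h => by
  obtain ⟨g, hg, hgx⟩ := hB j.succ u φ h
  set U := pos j (vecMulVec u φ)
  have hform : ∀ (v : Fin m → F) (w : Ten F m t), toS F m t g (ins v w) = ins v (w + U *ᵥ w) := fun v w => by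
    rw [toS_apply, hgx, map_add, LinearEquiv.apply_symm_apply, Matrix.toLin'_apply, slice_pos_succ,
      LinearEquiv.apply_symm_apply]
    funext a
    simp [U, Matrix.mulVec_smul]
  set e : Fin m → F := Pi.single ⟨0, hm⟩ 1
  have hinj : Function.Injective (LinearMap.id + Matrix.toLin' U : Ten F m t →ₗ[F] Ten F m t) :=
    (injective_iff_map_eq_zero _).2 fun w hw =>
      ins_injective (single_ne_zero' (F := F) (⟨0, hm⟩ : Fin m)) ((toS F m t g).injective (by
        rw [hform, show w + U *ᵥ w = 0 from hw, map_zero, map_zero]))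
  exact ⟨LinearEquiv.ofInjectiveEndo _ hinj, ⟨g, hg, 1, fun v w => by
    rw [hform, Matrix.one_mulVec]; rfl⟩, fun w => rfl⟩

lemma perms_tailGroup (hm : 2 ≤ m) {G : Subgroup (Ten F m (t + 1) ≃ₗ[F] Ten F m (t + 1))}
    (hP : Perms G) : Perms (tailGroup G) := fun σ => by
  obtain ⟨g, hg, A, hA⟩ := hP (Equiv.Perm.decomposeFin.symm (0, σ))
  obtain ⟨κ, hκ, hform⟩ := isT_of_wit hm hA (by simp)
  exact ⟨κ, ⟨g, hg, A 0, hform⟩, fun i => A i.succ, fun us => by rw [hκ]; simp⟩

/-- An elementary transvection of the last factors gives a non-scalar parameter. -/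
lemma not_noPar_of_elem (hm : 3 ≤ m) (ht : 2 ≤ t) {G : Subgroup (Ten F m (t + 1) ≃ₗ[F] Ten F m (t + 1))}
    (hB : Base G) (hE : Elem (tailGroup G)) :
    ∃ σ, ¬ NoPar ((conjG σ G).map (toS F m t).toMonoidHom) := by
  classical
  let a0 : Fin m := ⟨0, by omega⟩
  let a1 : Fin m := ⟨1, by omega⟩
  have ha : a0 ≠ a1 := by simp [a0, a1, Fin.ext_iff]
  let i0 : Fin t := ⟨0, by omega⟩
  let i1 : Fin t := ⟨1, by omega⟩
  have hi : i0 ≠ i1 := by simp [i0, i1, Fin.ext_iff]
  let x : Fin t → Fin m := fun _ => a0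
  let y : Fin t → Fin m := Function.update x i1 a1
  have hxy : x ≠ y := fun h => ha (by simpa [x, y] using congrFun h i1)
  obtain ⟨τ, ⟨h, hh, B, hhB⟩, hτ⟩ := hE x y hxy 1
  obtain ⟨η, hη, hηx⟩ := hB i0.succ (Pi.single a0 1) (Pi.single a1 1) (by simp [ha.symm])
  rw [← single_eq_vecMulVec] at hηx
  set H := pos i0 (Matrix.single a0 a1 (1 : F)) with hH
  set S := Matrix.single x y (1 : F) with hS
  let y2 : Fin t → Fin m := Function.update y i0 a1
  have hSpure : S = pureMat fun i => Matrix.single (x i) (y i) (1 : F) := (pureMat_single x y).symm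
  have hHH : H * H = 0 := by
    rw [hH, pos_mul, Matrix.single_mul_single_of_ne (h := ha.symm)]
    exact (posL (F := F) (m := m) i0).map_zero
  have hzero : ∀ (A : Fin t → Matrix (Fin m) (Fin m) F) i, A i = 0 → pureMat A = 0 := fun A i h => by
    ext z w; exact Finset.prod_eq_zero (Finset.mem_univ i) (by rw [h]; rfl)
  have hSS : S * S = 0 := by rw [hS, Matrix.single_mul_single_of_ne (h := hxy.symm)]
  have hHS : H * S = 0 := by
    rw [hH, hSpure, pos, pureMat_mul]
    refine hzero _ i0 ?_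
    rw [Function.update_self, Matrix.single_mul_single_of_ne (h := ha.symm)]
  have hSH : S * H = Matrix.single x y2 1 := by
    rw [hH, hSpure, pos, pureMat_mul, ← pureMat_single]
    congr 1
    funext i
    rcases eq_or_ne i i0 with rfl | hi'
    · simp [x, y, y2, Function.update_of_ne hi, Matrix.single_mul_single_same]
    · simp [y2, Function.update_of_ne hi']
  -- the forms
  have hηf : ∀ (u : Fin m → F) (w : Ten F m t), toS F m t η (ins u w) = ins u ((1 + H) *ᵥ w) := fun u w => by
    rw [toS_apply, hηx, map_add, LinearEquiv.apply_symm_apply, Matrix.toLin'_apply, slice_pos_succ,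
      LinearEquiv.apply_symm_apply]
    funext a
    simp [H, Matrix.add_mulVec, Matrix.mulVec_smul]
  have hηi : ∀ (u : Fin m → F) (w : Ten F m t), (toS F m t η)⁻¹ (ins u w) = ins u ((1 - H) *ᵥ w) := fun u w => (toS F m t η).injective (by
    rw [self_inv_apply, hηf, Matrix.mulVec_mulVec, add_mul, one_mul, mul_sub, mul_one, hHH, sub_zero,
      sub_add_cancel, Matrix.one_mulVec])
  have hτm : ∀ w, τ w = (1 + S) *ᵥ w := fun w => by
    rw [hτ, Matrix.toLin'_apply, Matrix.add_mulVec, Matrix.one_mulVec]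
  have hBsurj : Function.Surjective B.mulVec := by
    refine (LinearMap.injective_iff_surjective (f := B.mulVecLin)).1 fun u u' huu => ?_
    by_contra hne
    haveI : Nonempty (Fin t → Fin m) := ⟨x⟩
    obtain ⟨w, hw⟩ := exists_ne (0 : Ten F m t)
    refine hw (ins_injective (sub_ne_zero.2 hne) ((toS F m t h).injective ?_))
    rw [hhB, map_zero, map_zero, Matrix.mulVec_sub,
      show B *ᵥ u = B *ᵥ u' from huu, sub_self, ins_zero]
  set c := η * h * η⁻¹ * h⁻¹ with hc
  have hcG : c ∈ G := G.mul_mem (G.mul_mem (G.mul_mem hη hh) (G.inv_mem hη)) (G.inv_mem hh)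
  have hcf : ∀ (u : Fin m → F) (w : Ten F m t), toS F m t c (ins u w) = ins u (w - Matrix.single x y2 1 *ᵥ w) := by
    intro u w
    obtain ⟨u', rfl⟩ := hBsurj u
    obtain ⟨w', rfl⟩ := τ.surjective w
    rw [hc, map_mul, map_mul, map_mul, map_inv, map_inv, LinearEquiv.mul_apply,
      LinearEquiv.mul_apply, LinearEquiv.mul_apply, ← hhB, inv_apply_self, hηi, hhB, hηf, hτm, hτm]
    congr 1
    simp only [Matrix.mulVec_mulVec, ← Matrix.sub_mulVec]
    congr 1
    rw [← hSH]
    have h3 : S * H * S = 0 := by rw [mul_assoc, hHS, mul_zero]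
    have h4 : H * (S * H) = 0 := by rw [← mul_assoc, hHS, zero_mul]
    simp only [add_mul, mul_add, mul_sub, sub_mul, one_mul, mul_one, hHH, hSS, hHS, h3, h4, mul_assoc,
      mul_zero, zero_mul, sub_zero, add_zero]
    abel
  set N : Fin (t + 1) → Matrix (Fin m) (Fin m) F :=
    Fin.cons 1 fun i => Matrix.single (x i) (y2 i) 1
  have hcx : ∀ X, c X = X - pureMat N *ᵥ X := fun X => (slice F m t).injective (by
    have h1 : toS F m t c (slice F m t X) = fun a =>
        slice F m t X a - Matrix.single x y2 1 *ᵥ slice F m t X a := by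
      conv_lhs => rw [eq_sum_ins (F := F) (slice F m t X), map_sum]
      simp only [hcf]
      exact (eq_sum_ins _).symm
    rw [toS_apply, LinearEquiv.symm_apply_apply] at h1
    rw [h1, map_sub, slice_pureMat]
    funext a
    simp [N, Matrix.one_apply, pureMat_single])
  refine ⟨Equiv.swap 0 i0.succ, fun hP => ?_⟩
  set σ := Equiv.swap (0 : Fin (t + 1)) i0.succ with hσ
  set N' : Fin (t + 1) → Matrix (Fin m) (Fin m) F := fun i => N (σ.symm i)
  have hN0 : N' 0 = Matrix.single a0 a1 1 := by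
    simp [N', N, hσ, x, y2]
  have hmem : Mem ((conjG σ G).map (toS F m t).toMonoidHom)
      (root (Pi.single a0 1) (Pi.single a1 1)
        (-Matrix.toLin' (pureMat fun i => N' i.succ))) := by
    refine ⟨_, Subgroup.mem_map_of_mem _ (mem_conjG hcG), fun Y => ?_⟩
    rw [MulEquiv.coe_toMonoidHom, toS_apply, LinearEquiv.mul_apply, LinearEquiv.mul_apply, hcx,
      map_sub, perm_pureMat, self_inv_apply, map_sub, slice_pureMat, LinearEquiv.apply_symm_apply,
      sub_eq_add_neg, add_right_inj]
    funext a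
    simp only [Pi.neg_apply]
    rw [show N (σ.symm 0) = N' 0 from rfl, hN0]
    rcases eq_or_ne a a0 with h | h
    · simp [N', root_apply, Matrix.single_apply, Pi.single_apply, h]
    · simp [N', root_apply, Matrix.single_apply, Pi.single_apply, h, Ne.symm h]
  obtain ⟨cst, hcst⟩ := hP _ _ _ (single_ne_zero' a0) (single_ne_zero' a1) (by simp [ha.symm]) hmem
  have hN1 : N' i1.succ = Matrix.single a0 a1 1 := by
    have : σ.symm i1.succ = i1.succ := by
      rw [hσ, Equiv.symm_swap, Equiv.swap_apply_of_ne_of_ne (Fin.succ_ne_zero _)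
        ((Fin.succ_injective t).ne hi.symm)]
    simp [N', this, N, x, y2, y, Function.update_of_ne hi.symm]
  have hentry : pureMat (fun i => N' i.succ) x y = 1 := by
    refine Finset.prod_eq_one fun i _ => ?_
    rcases eq_or_ne i i0 with rfl | hi0
    · have : σ.symm i0.succ = 0 := by simp [hσ]
      simp [N', this, N, x, y, Function.update_of_ne hi]
    · have : σ.symm i.succ = i.succ := by
        rw [hσ, Equiv.symm_swap, Equiv.swap_apply_of_ne_of_ne (Fin.succ_ne_zero _)
          ((Fin.succ_injective t).ne hi0)]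
      simp [N', this, N, y2, Function.update_of_ne hi0]
  set M := pureMat fun i : Fin t => N' i.succ
  have hMM : M * M = 0 := by
    rw [pureMat_mul]
    exact hzero _ i1 (by rw [hN1, Matrix.single_mul_single_of_ne (h := ha.symm)])
  have hM : -M = cst • 1 := by
    refine Matrix.toLin'.injective ?_
    rw [map_neg, hcst, map_smul, Matrix.toLin'_one]
  have h2 := congrArg (fun X => X * X) hM
  simp only [neg_mul, mul_neg, neg_neg, hMM, Matrix.smul_mul, Matrix.mul_smul, one_mul, smul_smul] at h2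
  have h3 : cst = 0 := by
    have := congrFun (congrFun h2 x) x
    simp at this
    exact this
  rw [h3, zero_smul, neg_eq_zero] at hM
  rw [hM] at hentry
  exact zero_ne_one hentry

/-- The dichotomy. -/
theorem monomial_or_elem (hm : 3 ≤ m) : ∀ t, 1 ≤ t → ∀ G : Subgroup (Ten F m t ≃ₗ[F] Ten F m t),
    Base G → (3 ≤ t → Perms G) → G ≤ monomial F m t ∨ Elem G := by
  intro t ht
  induction t, ht using Nat.le_induction with
  | base => exact fun G _ _ => Or.inl fun g _ => monomial_one g
  | succ t ht ih =>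
    intro G hB hPerm
    by_cases hnp : ∀ σ, NoPar ((conjG σ G).map (toS F m t).toMonoidHom)
    swap
    · push Not at hnp
      obtain ⟨σ, hσ⟩ := hnp
      exact Or.inr (elem_of_conjG (elem_of_param hm (base_conjG hB σ)
        (fun h2 => perms_conjG (hPerm (by omega)) σ) hσ))
    left
    haveI : Nonempty (Fin t → Fin m) := ⟨fun _ => ⟨0, by omega⟩⟩
    haveI : Nontrivial (Ten F m t) := inferInstance
    set G0 := G.map (toS F m t).toMonoidHom
    set N0 := (monomial F m (t + 1)).map (toS F m t).toMonoidHom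
    have hG := hasFactor_toS hB
    have hP : NoPar G0 := by
      have h1 := hnp 1
      have : conjG 1 G = G := by
        ext g
        have h0 : perm F m (1 : Equiv.Perm (Fin (t + 1))) = 1 :=
          LinearEquiv.toLinearMap_injective (ext_pvec fun us => by
            simp only [LinearEquiv.coe_coe, perm_pvec]; rfl)
        simp [conjG, h0]
      rwa [this] at h1
    have htail : ∀ κ ∈ tailGroup G, κ ∈ monomial F m t := by
      rcases Nat.lt_or_ge t 2 with h1 | h2
      · obtain rfl : t = 1 := by omega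
        exact fun κ _ => monomial_one κ
      intro κ hκ
      rcases ih (tailGroup G) (base_tailGroup (by omega) hB)
        (fun h3 => perms_tailGroup (by omega) (hPerm (by omega))) with h | h
      · exact h hκ
      · obtain ⟨σ, hσ⟩ := not_noPar_of_elem hm h2 hB h
        exact absurd (hnp σ) hσ
    -- `hB1`
    have hB1 : ∀ g ∈ G, ∀ v v' : Fin m → F, v ≠ 0 → v' ≠ 0 →
        (∀ w, toS F m t g (ins v w) ∈ line (Ten F m t) v') → g ∈ monomial F m (t + 1) := by
      intro g hg v v' hv hv' hline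
      obtain ⟨r, hr, hrN, hrl⟩ := exists_mover hB hv hv'
      have hrg : r * g ∈ G := G.mul_mem hr hg
      have hne : F ∙ v ≠ ⊤ := fun h0 => by
        have := congrArg (fun P : Submodule F (Fin m → F) => finrank F P) h0
        simp only [finrank_span_singleton hv, finrank_top, finrank_fin_fun] at this
        omega
      obtain ⟨B, k, hBk⟩ := isT_of_stab hm hG hG hP (h := toS F m t (r * g))
        (fun f hf => Subgroup.mul_mem _ (Subgroup.mul_mem _ (Subgroup.mem_map_of_mem _ hrg) hf)
          (Subgroup.inv_mem _ (Subgroup.mem_map_of_mem _ hrg)))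
        (S := F ∙ v) (by simpa using hv) hne (fun X hX => by
          have : block (Ten F m t) (F ∙ v) ≤
              (block (Ten F m t) (F ∙ v)).comap (toS F m t (r * g)).toLinearMap :=
            block_le fun u hu w => by
              obtain ⟨c, rfl⟩ := Submodule.mem_span_singleton.1 hu
              obtain ⟨w', hw'⟩ := hline w
              obtain ⟨w'', hw''⟩ := hrl w'
              simp only [Submodule.mem_comap, LinearEquiv.coe_coe, ins_smul, map_smul, map_mul,
                LinearEquiv.mul_apply]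
              rw [← hw', ← hw'']
              exact Submodule.smul_mem _ c
                (ins_mem_block (Submodule.mem_span_singleton_self v) w'')
          exact this hX)
      have := mem_monomial_of_isT hBk (htail k ⟨r * g, hrg, B, hBk⟩)
      exact (Subgroup.mul_mem_cancel_left _ hrN).1 this
    suffices G0 ≤ N0 by
      intro g hg
      exact (Subgroup.mem_map_iff_mem (toS F m t).injective).1 (this (Subgroup.mem_map_of_mem _ hg))
    refine split_le hm hG hP ?_ ?_
    · rintro _ ⟨g, hg, rfl⟩ v v' hv hv' hline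
      exact Subgroup.mem_map_of_mem _ (hB1 g hg v v' hv hv' hline)
    rintro _ ⟨g, hg, rfl⟩ hxN φ hφ
    have hgN : g ∉ monomial F m (t + 1) := fun h => hxN (Subgroup.mem_map_of_mem _ h)
    by_contra hc
    push Not at hc
    obtain ⟨u₁, hu₁, hu₁φ, -⟩ := exists_perp_two hm φ φ
    rw [dotProduct_comm] at hu₁φ
    obtain ⟨u₂, hu₂φ, hu₂⟩ := exists_perp_notin' hm φ hu₁
    have hu₂0 : u₂ ≠ 0 := fun h0 => hu₂ (h0 ▸ zero_mem _)
    have hu₃0 : u₁ + u₂ ≠ 0 := fun h0 => hu₂ (by
      rw [eq_neg_of_add_eq_zero_right h0]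
      exact neg_mem (Submodule.mem_span_singleton_self _))
    -- the monomial element of a root
    have hroot : ∀ u : Fin m → F, u ≠ 0 → φ ⬝ᵥ u = 0 → ∃ n ∈ monomial F m (t + 1),
        (∀ X, n X = X + (slice F m t).symm ((toS F m t g)⁻¹
          (root u φ LinearMap.id (toS F m t g (slice F m t X))))) := by
      intro u hu h
      obtain ⟨τ, hτ, hτx⟩ := hG u φ h
      obtain ⟨n, hn, hnx⟩ := hc u hu h τ hτ hτx
      refine ⟨n, hn, fun X => (slice F m t).injective ?_⟩
      have h1 : toS F m t n (slice F m t X) =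
          ((toS F m t g)⁻¹ * τ * toS F m t g) (slice F m t X) :=
        congrArg (fun e : (Fin m → Ten F m t) ≃ₗ[F] (Fin m → Ten F m t) => e (slice F m t X)) hnx
      rw [LinearEquiv.mul_apply, LinearEquiv.mul_apply, hτx, map_add, inv_apply_self, toS_apply,
        LinearEquiv.symm_apply_apply] at h1
      rw [h1, map_add, LinearEquiv.apply_symm_apply]
    have hfacts : ∀ (u : Fin m → F) (n : Ten F m (t + 1) ≃ₗ[F] Ten F m (t + 1)), u ≠ 0 → φ ⬝ᵥ u = 0 →
        (∀ X, n X = X + (slice F m t).symm ((toS F m t g)⁻¹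
          (root u φ LinearMap.id (toS F m t g (slice F m t X))))) →
        (∀ X, n (n X - X) = n X - X) ∧
        finrank F (LinearMap.range (n.toLinearMap - LinearMap.id)) * m ≤ m ^ (t + 1) ∧ n ≠ 1 := by
      intro u n hu h hn
      refine ⟨fun X => ?_, ?_, fun h1 => ?_⟩
      · rw [hn (n X - X)]
        conv_lhs => arg 2; rw [hn X, add_sub_cancel_left, LinearEquiv.apply_symm_apply,
          self_inv_apply, root_sq h, map_zero, map_zero]
        rw [add_zero]
      · rw [pow_succ]
        refine Nat.mul_le_mul_right m ?_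
        rw [← finrank_ten (F := F) (m := m) (t := t)]
        refine (Submodule.finrank_mono (t := LinearMap.range ((slice F m t).symm.toLinearMap ∘ₗ
          ((toS F m t g)⁻¹ : _ ≃ₗ[F] _).toLinearMap ∘ₗ ins (W := Ten F m t) u)) ?_).trans
            (LinearMap.finrank_range_le _)
        rintro _ ⟨X, rfl⟩
        refine ⟨ev φ (toS F m t g (slice F m t X)), ?_⟩
        simp [hn, root_apply, -ev_apply]
      · obtain ⟨w, hw⟩ := exists_ne (0 : Ten F m t)
        obtain ⟨y, hy⟩ := exists_dot_one hφ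
        rw [dotProduct_comm] at hy
        have h2 := hn ((slice F m t).symm ((toS F m t g)⁻¹ (ins y w)))
        rw [h1, LinearEquiv.apply_symm_apply, self_inv_apply, root_apply, ev_ins, hy, one_smul,
          LinearMap.id_apply] at h2
        have h3 := add_eq_left.1 h2.symm
        rw [LinearEquiv.map_eq_zero_iff, LinearEquiv.map_eq_zero_iff] at h3
        exact hw (ins_injective hu (h3.trans (map_zero _).symm))
    obtain ⟨n₁, ⟨σ₁, A₁, hA₁⟩, hn₁⟩ := hroot u₁ hu₁ hu₁φ
    obtain ⟨n₂, ⟨σ₂, A₂, hA₂⟩, hn₂⟩ := hroot u₂ hu₂0 hu₂φ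
    have hu₃φ : φ ⬝ᵥ (u₁ + u₂) = 0 := by rw [dotProduct_add, hu₁φ, hu₂φ, add_zero]
    have hn₃ : ∀ X, (n₁ * n₂) X = X + (slice F m t).symm ((toS F m t g)⁻¹
        (root (u₁ + u₂) φ LinearMap.id (toS F m t g (slice F m t X)))) := fun X => by
      rw [LinearEquiv.mul_apply, hn₁, hn₂]
      simp [root_apply, ev_ins, hu₂φ, ins_add, -ev_apply]
      abel
    obtain ⟨u, n, A, hu, hφu, hn, hA⟩ : ∃ (u : Fin m → F) (n : Ten F m (t + 1) ≃ₗ[F] Ten F m (t + 1))
        (A : Fin (t + 1) → Matrix (Fin m) (Fin m) F), u ≠ 0 ∧ φ ⬝ᵥ u = 0 ∧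
        (∀ X, n X = X + (slice F m t).symm ((toS F m t g)⁻¹
          (root u φ LinearMap.id (toS F m t g (slice F m t X))))) ∧ Wit 1 A n := by
      by_cases h1 : σ₁ = 1
      · exact ⟨u₁, n₁, A₁, hu₁, hu₁φ, hn₁, h1 ▸ hA₁⟩
      by_cases h2 : σ₂ = 1
      · exact ⟨u₂, n₂, A₂, hu₂0, hu₂φ, hn₂, h2 ▸ hA₂⟩
      by_cases h3 : σ₂ * σ₁ = 1
      · exact ⟨u₁ + u₂, n₁ * n₂, _, hu₃0, hu₃φ, hn₃, h3 ▸ hA₁.mul hA₂⟩
      exfalso
      obtain ⟨a1, b1, -⟩ := hfacts u₁ n₁ hu₁ hu₁φ hn₁
      obtain ⟨a2, b2, -⟩ := hfacts u₂ n₂ hu₂0 hu₂φ hn₂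
      obtain ⟨a3, b3, -⟩ := hfacts _ _ hu₃0 hu₃φ hn₃
      have := sign_of_ne_one hm (hA₁.mul hA₂) a3 b3 h3
      rw [map_mul, sign_of_ne_one hm hA₁ a1 b1 h1, sign_of_ne_one hm hA₂ a2 b2 h2] at this
      exact absurd this (by decide)
    obtain ⟨hsq, hrank, hne⟩ := hfacts u n hu hφu hn
    obtain ⟨j, s, hs, hblock⟩ := exists_bspan hm _ A n hA hsq hrank hne
    obtain ⟨y, hy⟩ := exists_dot_one hφ
    rw [dotProduct_comm] at hy
    have himg : ∀ w, g⁻¹ ((slice F m t).symm (ins u w)) ∈ bspan j s := fun w => by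
      have h2 := hblock ((slice F m t).symm ((toS F m t g)⁻¹ (ins y w)))
      rw [hn, add_sub_cancel_left, LinearEquiv.apply_symm_apply, self_inv_apply, root_apply, ev_ins,
        hy, one_smul, LinearMap.id_apply, ← map_inv, toS_apply, LinearEquiv.symm_apply_apply] at h2
      exact h2
    -- images of blocks
    have hslice : ∀ s : Fin m → F, (bspan (0 : Fin (t + 1)) s).map (slice F m t).toLinearMap ≤
        line (Ten F m t) s := fun s => by
      rw [bspan, Submodule.map_span_le]
      rintro _ ⟨us, hus, rfl⟩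
      rw [LinearEquiv.coe_coe, slice_pvec, show us 0 = s from hus]
      exact ⟨_, rfl⟩
    have hmove : ∀ (P : Ten F m (t + 1) ≃ₗ[F] Ten F m (t + 1)) (B : Fin (t + 1) → Matrix (Fin m) (Fin m) F),
        Wit (Equiv.swap 0 j) B P →
        ∀ w, toS F m t (P * g⁻¹) (ins u w) ∈ line (Ten F m t) (B 0 *ᵥ s) := fun P B hP' w => by
      have hle : (bspan j s).map P.toLinearMap ≤ bspan 0 (B 0 *ᵥ s) := by
        rw [bspan, Submodule.map_span_le]
        rintro _ ⟨us, hus, rfl⟩
        rw [LinearEquiv.coe_coe, hP']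
        refine Submodule.subset_span ⟨_, ?_, rfl⟩
        simp [show us j = s from hus]
      exact hslice _ ⟨_, hle ⟨_, himg w, rfl⟩, rfl⟩
    rcases eq_or_ne j 0 with rfl | hj
    · refine hgN ((Subgroup.inv_mem_iff _).1 (hB1 g⁻¹ (G.inv_mem hg) u s hu hs fun w => ?_))
      exact hslice _ ⟨_, himg w, rfl⟩
    rcases Nat.lt_or_ge t 2 with h1 | h2
    · obtain rfl : t = 1 := by omega
      set σ := Equiv.swap (0 : Fin 2) j with hσ
      have hline : ∀ w, toS F m 1 (perm F m σ * g⁻¹) (ins u w) ∈ line (Ten F m 1) s := fun w => by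
        simpa using hmove (perm F m σ) (fun _ => 1)
          (by have := wit_perm (F := F) (m := m) σ; rwa [hσ, Equiv.symm_swap] at this) w
      obtain ⟨r, hr, hrN, hrl⟩ := exists_mover (base_conjG hB σ) hu hs
      set h := r * (perm F m σ * g⁻¹) with hh
      have hne : F ∙ u ≠ ⊤ := fun h0 => by
        have := congrArg (fun P : Submodule F (Fin m → F) => finrank F P) h0
        simp only [finrank_span_singleton hu, finrank_top, finrank_fin_fun] at this
        omega
      obtain ⟨B, k, hBk⟩ := isT_of_stab hm hG (hasFactor_toS (base_conjG hB σ)) (hnp σ)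
        (h := toS F m 1 h) (by
          rintro _ ⟨f, hf, rfl⟩
          refine ⟨h * f * h⁻¹, ?_, by simp⟩
          have : h * f * h⁻¹ = r * (perm F m σ * (g⁻¹ * f * g) * (perm F m σ)⁻¹) * r⁻¹ := by
            rw [hh]; group
          rw [this]
          exact Subgroup.mul_mem _ (Subgroup.mul_mem _ hr
            (mem_conjG (G.mul_mem (G.mul_mem (G.inv_mem hg) hf) hg))) (Subgroup.inv_mem _ hr))
        (S := F ∙ u) (by simpa using hu) hne (fun X hX => by
          have : block (Ten F m 1) (F ∙ u) ≤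
              (block (Ten F m 1) (F ∙ u)).comap (toS F m 1 h).toLinearMap :=
            block_le fun u' hu' w => by
              obtain ⟨c, rfl⟩ := Submodule.mem_span_singleton.1 hu'
              obtain ⟨w', hw'⟩ := hline w
              obtain ⟨w'', hw''⟩ := hrl w'
              simp only [Submodule.mem_comap, LinearEquiv.coe_coe, ins_smul, map_smul]
              rw [hh, map_mul, LinearEquiv.mul_apply, ← hw', ← hw'']
              exact Submodule.smul_mem _ c
                (ins_mem_block (Submodule.mem_span_singleton_self u) w'')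
          exact this hX)
      have h1 := mem_monomial_of_isT hBk (monomial_one k)
      rw [hh, Subgroup.mul_mem_cancel_left _ hrN,
        Subgroup.mul_mem_cancel_left _ (show perm F m σ ∈ monomial F m _ from ⟨_, _, wit_perm σ⟩),
        Subgroup.inv_mem_iff] at h1
      exact hgN h1
    · obtain ⟨P, hPG, B, hPB⟩ := hPerm (by omega) (Equiv.swap 0 j)
      have hB0 : B 0 *ᵥ s ≠ 0 := fun h0 => hs (wit_injective (by omega) hPB 0
        (h0.trans (Matrix.mulVec_zero _).symm))
      have := hB1 _ (G.mul_mem hPG (G.inv_mem hg)) u _ hu hB0 (hmove P B hPB)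
      rw [Subgroup.mul_mem_cancel_left _ (show P ∈ monomial F m _ from ⟨_, _, hPB⟩),
        Subgroup.inv_mem_iff] at this
      exact hgN this

end Cfsg.Agent.MaxSub.TensorPow
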