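import Cfsg.Agent.MaxSub.TensorPow.Main
import Cfsg.Agent.MaxSub.TensorPow.Det
import Cfsg.Agent.MaxSub.Proper
import Cfsg.Agent.GeoClasses.TransvGen

/-!
The stabiliser of a decomposition into `t ≥ 2` tensor factors of dimension `m ≥ 3` is maximal in
`SL`.
-/

set_option autoImplicit false
set_option linter.style.haveILetI false
set_option linter.unusedSectionVars false

namespace Cfsg.Agent.MaxSub.TensorPow

open Module Matrix Cfsg.Agent.MaxSub.ExtField Cfsg.Geo Cfsg.Agent.GeoClasses
open scoped MatrixGroups

variable {F : Type*} [Field F] [Finite F] {m t : ℕ}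

/-- Invertible matrices as equivalences of the tensor power. -/
noncomputable def actT (F : Type*) [Field F] (m t : ℕ) :
    GL (Fin t → Fin m) F ≃* (Ten F m t ≃ₗ[F] Ten F m t) :=
  Matrix.GeneralLinearGroup.toLin.trans (LinearMap.GeneralLinearGroup.generalLinearEquiv F (Ten F m t))

lemma actT_apply (g : GL (Fin t → Fin m) F) (X : Ten F m t) :
    actT F m t g X = (g : Matrix (Fin t → Fin m) (Fin t → Fin m) F) *ᵥ X := by
  simp [actT, Matrix.GeneralLinearGroup.toLin]

lemma det_actT (g : GL (Fin t → Fin m) F) :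
    LinearMap.det (actT F m t g).toLinearMap = (g : Matrix (Fin t → Fin m) (Fin t → Fin m) F).det := by
  rw [← LinearMap.det_toLin']
  exact congrArg LinearMap.det (LinearMap.ext fun X => by simp [actT_apply])

lemma mem_standard_iff (hm : 2 ≤ m) (g : GL (Fin t → Fin m) F) :
    g ∈ tensorWreathStandard m t F ↔ actT F m t g ∈ monomial F m t := by
  classical
  constructor
  · intro hg
    refine (Subgroup.mem_comap (f := (actT F m t).toMonoidHom)).1
      ((Subgroup.closure_le _).2 ?_ hg)
    rintro x (⟨gs, hgs⟩ | ⟨σ, hσ⟩)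
    · refine ⟨1, fun i => (gs i : Matrix (Fin m) (Fin m) F), fun us => ?_⟩
      rw [MulEquiv.coe_toMonoidHom, actT_apply,
        show (x : Matrix (Fin t → Fin m) (Fin t → Fin m) F) = pureMat fun i => (gs i : Matrix _ _ F)
          from Matrix.ext hgs, pureMat_pvec]
      rfl
    · refine ⟨σ.symm, fun _ => 1, fun us => ?_⟩
      rw [MulEquiv.coe_toMonoidHom, actT_apply]
      funext z
      simp only [Matrix.mulVec, dotProduct, hσ, ite_mul, one_mul, zero_mul, Finset.sum_ite_eq',
        Finset.mem_univ, if_true, pvec]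
      exact Fintype.prod_equiv σ _ _ fun i => by simp [Matrix.one_apply]
  · rintro ⟨σ, A, hA⟩
    have hu : ∀ i, IsUnit (A i) := fun i =>
      Matrix.mulVec_injective_iff_isUnit.1 (wit_injective hm hA i)
    have : g = glPure (fun i => (hu i).unit) * glFactorPerm m σ.symm := by
      refine gl_ext_mulVec fun X => ?_
      rw [← actT_apply, ← actT_apply]
      refine LinearMap.congr_fun (ext_pvec (f := (actT F m t g).toLinearMap)
        (g := (actT F m t (glPure (fun i => (hu i).unit) * glFactorPerm m σ.symm)).toLinearMap)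
        fun us => ?_) X
      rw [LinearEquiv.coe_coe, LinearEquiv.coe_coe, hA, actT_apply, Units.val_mul,
        ← Matrix.mulVec_mulVec]
      have h2 : ((glFactorPerm m σ.symm : GL (Fin t → Fin m) F) : Matrix _ _ F) *ᵥ pvec us =
          pvec fun i => us (σ i) := by
        funext z
        show (factorPerm m σ.symm *ᵥ pvec us) z = _
        simp only [Matrix.mulVec, dotProduct, factorPerm, ite_mul, one_mul, zero_mul,
          Finset.sum_ite_eq', Finset.mem_univ, if_true, pvec]
        exact Fintype.prod_equiv σ.symm _ _ fun i => by simp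
      rw [h2]
      exact (pureMat_pvec (fun i => ((hu i).unit : Matrix (Fin m) (Fin m) F)) _).symm
    rw [this]
    exact Subgroup.mul_mem _ (Subgroup.subset_closure (Or.inl ⟨_, fun x y => rfl⟩))
      (Subgroup.subset_closure (Or.inr ⟨σ.symm, fun x y => rfl⟩))

/-- The maximality. -/
theorem tensorWreath_maximal {ι : Type} [Fintype ι] [DecidableEq ι] (hm : 3 ≤ m) (ht : 2 ≤ t)
    (e : ι ≃ (Fin t → Fin m)) (P : GL ι F) :
    IsMaximalIn (specialLinear ι F) (tensorWreathSubgroup m t e P ⊓ specialLinear ι F) := by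
  classical
  refine ⟨lt_of_le_not_ge inf_le_right fun hle => Cfsg.Agent.MaxSub.not_le_tensorWreathSubgroup
    (by omega) ht e P (hle.trans inf_le_left), fun M hM hMS => ?_⟩
  set ψ : GL (Fin t → Fin m) F ≃* GL ι F := (glReindex e.symm).trans (MulAut.conj P) with hψ
  have hdet : ∀ g, ψ g ∈ specialLinear ι F ↔
      (g : Matrix (Fin t → Fin m) (Fin t → Fin m) F).det = 1 := fun g => by
    rw [mem_specialLinear_iff, show ((ψ g : GL ι F) : Matrix ι ι F) =
      (P : Matrix ι ι F) * (glReindex e.symm g : GL ι F) * ((P⁻¹ : GL ι F) : Matrix ι ι F) from rfl,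
      Matrix.det_units_conj, glReindex_apply, Matrix.det_reindexAlgEquiv]
  have hwr : ∀ g, ψ g ∈ tensorWreathSubgroup m t e P ↔ g ∈ tensorWreathStandard m t F := fun g => by
    rw [tensorWreathSubgroup, Subgroup.map_map]
    exact Subgroup.mem_map_iff_mem (f := (MulAut.conj P).toMonoidHom.comp
      (glReindex e.symm).toMonoidHom) (K := tensorWreathStandard m t F) ψ.injective
  let G : Subgroup (Ten F m t ≃ₗ[F] Ten F m t) :=
    M.comap ((actT F m t).symm.trans ψ).toMonoidHom
  have hG : ∀ f, f ∈ G ↔ ψ ((actT F m t).symm f) ∈ M := fun f => Iff.rfl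
  have hin : ∀ f : Ten F m t ≃ₗ[F] Ten F m t, f ∈ monomial F m t →
      LinearMap.det f.toLinearMap = 1 → f ∈ G := fun f hf hd => by
    refine (hG f).2 (hM ⟨(hwr _).2 ((mem_standard_iff (by omega) _).2 (by simpa using hf)),
      (hdet _).2 ?_⟩)
    rw [← det_actT, MulEquiv.apply_symm_apply, hd]
  have hB : Base G := fun j u φ h => by
    set U := pos j (vecMulVec u φ) with hU
    have hUU : U * U = 0 := by
      rw [hU, pos_mul, Matrix.vecMulVec_mul_vecMulVec, h, zero_smul, Matrix.vecMulVec_zero]
      exact (posL (F := F) (m := m) j).map_zero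
    have hsq : (Matrix.toLin' U : Module.End F (Ten F m t)) * Matrix.toLin' U = 0 := by
      rw [Module.End.mul_eq_comp, ← Matrix.toLin'_mul, hUU, map_zero]
    have hinj : Function.Injective (LinearMap.id + Matrix.toLin' U : Ten F m t →ₗ[F] Ten F m t) :=
      (injective_iff_map_eq_zero _).2 fun w hw => by
        have h1 : w = -(Matrix.toLin' U w) := eq_neg_of_add_eq_zero_left hw
        have h2 : Matrix.toLin' U (Matrix.toLin' U w) = 0 := LinearMap.congr_fun hsq w
        have h3 : Matrix.toLin' U w = 0 := by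
          rw [h1, map_neg, h2, neg_zero]
        rw [h1, h3, neg_zero]
    refine ⟨LinearEquiv.ofInjectiveEndo _ hinj, hin _ (pos_mem_monomial (j := j) (M := vecMulVec u φ) fun X => ?_) ?_, fun X => rfl⟩
    · rfl
    · exact det_one_add_eq_one hsq
  have hP : 3 ≤ t → Perms G := fun h3 σ => by
    obtain ⟨s, rfl⟩ : ∃ s, t = s + 1 := ⟨t - 1, by omega⟩
    have hw : Wit σ (fun _ => (1 : Matrix (Fin m) (Fin m) F)) (perm F m σ.symm) := by
      simpa using wit_perm (F := F) (m := m) σ.symm
    rcases Nat.even_or_odd m with hme | hmo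
    · exact ⟨_, hin _ ⟨_, _, hw⟩ (permDet_eq_one hme (by omega) σ.symm), _, hw⟩
    set D := permDet F m (s + 1) σ.symm with hDdef
    have hD0 : D ≠ 0 := fun h0 => one_ne_zero
      ((permDet_sq (F := F) (m := m) σ.symm).symm.trans (by rw [← hDdef, h0, mul_zero]))
    set g := LinearEquiv.smulOfUnit (R := F) (M := Ten F m (s + 1)) (Units.mk0 D hD0) * perm F m σ.symm
    have hg : Wit σ (Function.update (fun _ => (1 : Matrix (Fin m) (Fin m) F)) 0 (D • 1)) g :=
      fun us => by
        show D • perm F m σ.symm (pvec us) = _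
        rw [hw]
        have e1 : (fun i => Function.update (fun _ => (1 : Matrix (Fin m) (Fin m) F)) 0 (D • 1) i *ᵥ
            us (σ i)) = Function.update (fun i => us (σ i)) 0 (D • us (σ 0)) := by
          funext i
          rcases eq_or_ne i 0 with rfl | hi
          · simp [Matrix.smul_mulVec]
          · simp [Function.update_of_ne hi]
        rw [e1, pvec_update_smul, Function.update_eq_self]
        simp
    refine ⟨g, hin g ⟨_, _, hg⟩ ?_, _, hg⟩
    have : g.toLinearMap = D • (perm F m σ.symm).toLinearMap := rfl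
    rw [this, LinearMap.det_smul, finrank_ten]
    show D ^ m ^ (s + 1) * D = 1
    obtain ⟨k, hk⟩ : Odd (m ^ (s + 1)) := hmo.pow
    have hsq : D * D = 1 := permDet_sq σ.symm
    rw [hk, pow_succ, pow_mul, pow_two, hsq, one_pow, one_mul, hsq]
  rcases monomial_or_elem hm t (by omega) G hB hP with h | h
  · refine Or.inl (le_antisymm (le_inf (fun g hg => ?_) hMS) hM)
    obtain ⟨f, rfl⟩ := ψ.surjective g
    have hf : actT F m t f ∈ G := (hG _).2 (by rwa [MulEquiv.symm_apply_apply])
    exact (hwr f).2 ((mem_standard_iff (by omega) f).2 (h hf))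
  · refine Or.inr (le_antisymm hMS fun g hg => ?_)
    obtain ⟨f, rfl⟩ := ψ.surjective g
    haveI : Nontrivial (Fin t → Fin m) := by
      haveI : Nontrivial (Fin m) := Fin.nontrivial_iff_two_le.2 (by omega)
      haveI : Nonempty (Fin t) := ⟨⟨0, by omega⟩⟩
      infer_instance
    have key : ∀ A : Matrix.SpecialLinearGroup (Fin t → Fin m) F,
        ψ (Matrix.SpecialLinearGroup.toGL A) ∈ M := by
      intro A
      refine Cfsg.Agent.Linear.transvection_induction
        (fun A => ψ (Matrix.SpecialLinearGroup.toGL A) ∈ M) (fun i j hij c => ?_)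
        (fun A B hA hB => ?_) A
      · obtain ⟨f', hf', hf'x⟩ := h i j hij c
        convert (hG f').1 hf' using 2
        refine (actT F m t).injective (LinearEquiv.ext fun X => ?_)
        rw [MulEquiv.apply_symm_apply, hf'x, actT_apply, Matrix.toLin'_apply]
        show (Matrix.SpecialLinearGroup.transvection hij c).1 *ᵥ X = _
        rw [Matrix.SpecialLinearGroup.transvection_coe, Matrix.add_mulVec, Matrix.one_mulVec]
      · rw [map_mul, map_mul]
        exact mul_mem hA hB
    convert key ⟨(f : Matrix (Fin t → Fin m) (Fin t → Fin m) F), (hdet f).1 hg⟩ using 2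
    exact Units.ext rfl

end Cfsg.Agent.MaxSub.TensorPow
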