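import Cfsg.Agent.S0205

/-!
The group generated by two elements `1 + T`, `1 + A` with `T² = A² = 0`: in odd characteristic it
has an involution, which is central, unless it is a `p`-group.
-/

set_option autoImplicit false
set_option linter.style.haveILetI false

namespace Cfsg.Agent.MaxSub.TensorPow.TwoSq

open Polynomial

variable {F V : Type*} [Field F] [AddCommGroup V] [Module F V]

/-- `t = 1 + T` and `a = 1 + A` with `T² = A² = 0`. -/
structure Pair (F V : Type*) [Field F] [AddCommGroup V] [Module F V] where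
  t : V ≃ₗ[F] V
  a : V ≃ₗ[F] V
  T : Module.End F V
  A : Module.End F V
  t_eq : t.toLinearMap = 1 + T
  a_eq : a.toLinearMap = 1 + A
  TT : T * T = 0
  AA : A * A = 0

namespace Pair

variable (D : Pair F V)

/-- The generated group. -/
def grp : Subgroup (V ≃ₗ[F] V) := Subgroup.closure {D.t, D.a}

lemma t_mem : D.t ∈ D.grp := Subgroup.subset_closure (by simp)

lemma a_mem : D.a ∈ D.grp := Subgroup.subset_closure (by simp)

/-- The central element of the algebra. -/
def c : Module.End F V := D.T * D.A + D.A * D.T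

lemma T_A_T : D.T * D.A * D.T = D.c * D.T := by
  rw [c, add_mul, mul_assoc D.A, D.TT, mul_zero, add_zero]

lemma A_T_A : D.A * D.T * D.A = D.c * D.A := by
  rw [c, add_mul, mul_assoc D.T, D.AA, mul_zero, zero_add]

lemma commute_T : Commute D.T D.c := by
  show D.T * D.c = D.c * D.T
  rw [c, mul_add, add_mul, ← mul_assoc, D.TT, zero_mul, zero_add, mul_assoc D.A, D.TT, mul_zero,
    add_zero, mul_assoc]

lemma commute_A : Commute D.A D.c := by
  show D.A * D.c = D.c * D.A
  rw [c, mul_add, add_mul, ← mul_assoc D.A D.A, D.AA, zero_mul, add_zero, mul_assoc D.T D.A, D.AA,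
    mul_zero, zero_add, mul_assoc]

/-- A polynomial in `c`. -/
noncomputable abbrev P (p : F[X]) : Module.End F V := aeval D.c p

lemma T_P (p : F[X]) : D.T * D.P p = D.P p * D.T := by
  induction p using Polynomial.induction_on' with
  | add p q hp hq => simp [P, map_add, mul_add, add_mul] at hp hq ⊢; rw [hp, hq]
  | monomial n r =>
    simp only [P, aeval_monomial, ← Algebra.smul_def, mul_smul_comm, smul_mul_assoc,
      (D.commute_T.pow_right n).eq]

lemma A_P (p : F[X]) : D.A * D.P p = D.P p * D.A := by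
  induction p using Polynomial.induction_on' with
  | add p q hp hq => simp [P, map_add, mul_add, add_mul] at hp hq ⊢; rw [hp, hq]
  | monomial n r =>
    simp only [P, aeval_monomial, ← Algebra.smul_def, mul_smul_comm, smul_mul_assoc,
      (D.commute_A.pow_right n).eq]

/-- The element `α + β T + γ A + δ T A`. -/
noncomputable def N (α β γ δ : F[X]) : Module.End F V :=
  D.P α + D.P β * D.T + D.P γ * D.A + D.P δ * (D.T * D.A)

lemma commute_P (p : F[X]) {u : Module.End F V} (hu : Commute u D.c) : Commute u (D.P p) := by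
  induction p using Polynomial.induction_on' with
  | add p q hp hq => simp only [P, map_add]; exact hp.add_right hq
  | monomial n r =>
    simp only [P, aeval_monomial]
    exact (Algebra.commute_algebraMap_right r u).mul_right (hu.pow_right n)

lemma P_mul (p q : F[X]) (u v : Module.End F V) (hu : Commute u D.c) :
    D.P p * u * (D.P q * v) = D.P (p * q) * (u * v) := by
  rw [mul_assoc, ← mul_assoc u, (D.commute_P q hu).eq, mul_assoc, ← mul_assoc]
  simp [P]

lemma N_mul (α β γ δ α' β' γ' δ' : F[X]) :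
    D.N α β γ δ * D.N α' β' γ' δ' =
      D.N (α * α' + γ * β' * X) (α * β' + β * α' + δ * β' * X) (α * γ' + γ * α' + γ * δ' * X)
        (α * δ' + δ * α' + β * γ' - γ * β' + δ * δ' * X) := by
  have h1 : Commute (1 : Module.End F V) D.c := Commute.one_left _
  have hTA : Commute (D.T * D.A) D.c := D.commute_T.mul_left D.commute_A
  have e : ∀ p, D.P p = D.P p * 1 := fun p => (mul_one _).symm
  have eAT : D.A * D.T = D.c - D.T * D.A := by rw [c]; abel
  have e1 : D.T * (D.T * D.A) = 0 := by rw [← mul_assoc, D.TT, zero_mul]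
  have e2 : D.A * (D.T * D.A) = D.c * D.A := by rw [← mul_assoc, D.A_T_A]
  have e3 : D.T * D.A * D.A = 0 := by rw [mul_assoc, D.AA, mul_zero]
  have e4 : D.T * D.A * (D.T * D.A) = D.c * (D.T * D.A) := by
    rw [← mul_assoc, D.T_A_T, mul_assoc]
  have hPc : ∀ p u, D.P p * (D.c * u) = D.P (p * X) * u := fun p u => by simp [P, mul_assoc]
  have hPc' : ∀ p, D.P p * D.c = D.P (p * X) := fun p => by simp [P]
  have hPP : ∀ p q, D.P p * D.P q = D.P (p * q) := fun p q => by simp [P]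
  have hPPu : ∀ p q u, D.P p * (D.P q * u) = D.P (p * q) * u := fun p q u => by
    rw [← mul_assoc, hPP]
  have hu : ∀ p q {u : Module.End F V}, Commute u D.c → D.P p * u * D.P q = D.P (p * q) * u :=
    fun p q u h => by rw [mul_assoc, (D.commute_P q h).eq, hPPu]
  unfold N
  simp only [add_mul, mul_add, hPP, hPPu, hu _ _ D.commute_T, hu _ _ D.commute_A, hu _ _ hTA,
    D.P_mul _ _ _ _ D.commute_T,
    D.P_mul _ _ _ _ D.commute_A, D.P_mul _ _ _ _ hTA, one_mul, mul_one, D.TT, D.AA, e1, e2, e3, e4,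
    D.T_A_T, eAT, mul_sub, hPc, hPc', mul_zero, add_zero, zero_add]
  simp only [P, map_add, map_sub, add_mul, sub_mul]
  abel

lemma N_add (α β γ δ α' β' γ' δ' : F[X]) :
    D.N α β γ δ + D.N α' β' γ' δ' = D.N (α + α') (β + β') (γ + γ') (δ + δ') := by
  simp only [N, P, map_add, add_mul]; abel

lemma N_congr {α β γ δ α' β' γ' δ' : F[X]} (h1 : α = α') (h2 : β = β') (h3 : γ = γ')
    (h4 : δ = δ') : D.N α β γ δ = D.N α' β' γ' δ' := by rw [h1, h2, h3, h4]

lemma N_one : D.N 1 0 0 0 = 1 := by simp [N, P]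

lemma N_sub (α β γ δ α' β' γ' δ' : F[X]) :
    D.N α β γ δ - D.N α' β' γ' δ' = D.N (α - α') (β - β') (γ - γ') (δ - δ') := by
  simp only [N, P, map_sub, sub_mul]; abel

/-- `g` and its inverse in terms of `T` and `A`, with coefficients polynomials in `c`. -/
def Coeff (g : V ≃ₗ[F] V) (α β γ δ : F[X]) : Prop :=
  g.toLinearMap = D.N α β γ δ ∧
    (g⁻¹ : V ≃ₗ[F] V).toLinearMap = D.N (α + δ * X) (-β) (-γ) (-δ)

lemma toLinearMap_mul (g h : V ≃ₗ[F] V) :
    (g * h).toLinearMap = (g.toLinearMap * h.toLinearMap : Module.End F V) := rfl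

lemma inv_eq_of_sq {g : V ≃ₗ[F] V} {M : Module.End F V} (hg : g.toLinearMap = 1 + M)
    (hM : M * M = 0) : (g⁻¹ : V ≃ₗ[F] V).toLinearMap = 1 - M := by
  have h1 : (g.toLinearMap * (g⁻¹ : V ≃ₗ[F] V).toLinearMap : Module.End F V) = 1 := by
    rw [← toLinearMap_mul, mul_inv_cancel]; rfl
  calc (g⁻¹ : V ≃ₗ[F] V).toLinearMap
      = ((1 - M) * (1 + M)) * (g⁻¹ : V ≃ₗ[F] V).toLinearMap := by
        rw [sub_mul, one_mul, mul_add, mul_one, hM, add_zero, add_sub_cancel_right, one_mul]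
    _ = 1 - M := by rw [mul_assoc, ← hg, h1, mul_one]

lemma t_inv : (D.t⁻¹ : V ≃ₗ[F] V).toLinearMap = 1 - D.T := inv_eq_of_sq D.t_eq D.TT

lemma a_inv : (D.a⁻¹ : V ≃ₗ[F] V).toLinearMap = 1 - D.A := inv_eq_of_sq D.a_eq D.AA

lemma coeff_t : D.Coeff D.t 1 1 0 0 :=
  ⟨by rw [D.t_eq]; simp [N, P], by rw [D.t_inv]; simp [N, P, sub_eq_add_neg]⟩

lemma coeff_a : D.Coeff D.a 1 0 1 0 :=
  ⟨by rw [D.a_eq]; simp [N, P], by rw [D.a_inv]; simp [N, P, sub_eq_add_neg]⟩

lemma coeff_inv {g : V ≃ₗ[F] V} {α β γ δ : F[X]} (h : D.Coeff g α β γ δ) :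
    D.Coeff g⁻¹ (α + δ * X) (-β) (-γ) (-δ) :=
  ⟨h.2, by rw [inv_inv, h.1]; refine D.N_congr ?_ ?_ ?_ ?_ <;> ring⟩

lemma coeff_mul {g h : V ≃ₗ[F] V} {α β γ δ α' β' γ' δ' : F[X]} (hg : D.Coeff g α β γ δ)
    (hh : D.Coeff h α' β' γ' δ') :
    D.Coeff (g * h) (α * α' + γ * β' * X) (α * β' + β * α' + δ * β' * X)
      (α * γ' + γ * α' + γ * δ' * X) (α * δ' + δ * α' + β * γ' - γ * β' + δ * δ' * X) := by
  refine ⟨by rw [toLinearMap_mul, hg.1, hh.1, D.N_mul], ?_⟩
  rw [mul_inv_rev, toLinearMap_mul, hh.2, hg.2, D.N_mul]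
  refine D.N_congr ?_ ?_ ?_ ?_ <;> ring

lemma exists_coeff {g : V ≃ₗ[F] V} (hg : g ∈ D.grp) :
    ∃ α β γ δ : F[X], D.Coeff g α β γ δ ∧ α.coeff 0 = 1 := by
  refine Subgroup.closure_induction_right (p := fun g _ => ∃ α β γ δ : F[X],
      D.Coeff g α β γ δ ∧ α.coeff 0 = 1) ?_ ?_ ?_ hg
  · exact ⟨1, 0, 0, 0, ⟨by rw [D.N_one]; rfl, by rw [inv_one, zero_mul, add_zero, neg_zero, D.N_one]; rfl⟩, by simp⟩
  · rintro x hx y (rfl | rfl) ⟨α, β, γ, δ, h, h0⟩
    · exact ⟨_, _, _, _, D.coeff_mul h D.coeff_t, by simp [h0]⟩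
    · exact ⟨_, _, _, _, D.coeff_mul h D.coeff_a, by simp [h0]⟩
  · rintro x hx y (rfl | rfl) ⟨α, β, γ, δ, h, h0⟩
    · exact ⟨_, _, _, _, D.coeff_mul h (D.coeff_inv D.coeff_t), by simp [h0]⟩
    · exact ⟨_, _, _, _, D.coeff_mul h (D.coeff_inv D.coeff_a), by simp [h0]⟩

/-- In odd characteristic involutions of the group centralise both generators. -/
lemma involution_commute (h2 : (2 : F) ≠ 0) {z : V ≃ₗ[F] V} (hz : z ∈ D.grp) (hzz : z⁻¹ = z) :
    z * D.t = D.t * z ∧ z * D.a = D.a * z := by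
  obtain ⟨α, β, γ, δ, ⟨h1, h1'⟩, -⟩ := D.exists_coeff hz
  rw [hzz, h1] at h1'
  have hE : D.N (-δ * X) (β + β) (γ + γ) (δ + δ) = 0 := by
    rw [← sub_eq_zero.2 h1', D.N_sub]; refine D.N_congr ?_ ?_ ?_ ?_ <;> ring
  have half : ∀ x : Module.End F V, x + x = 0 → x = 0 := fun x hx => by
    rw [← two_smul F x] at hx
    exact (smul_eq_zero.1 hx).resolve_left h2
  have hT : D.T = D.N 0 1 0 0 := by simp [N, P]
  have hA : D.A = D.N 0 0 1 0 := by simp [N, P]
  have kT : (z.toLinearMap : Module.End F V) * D.T = D.T * z.toLinearMap := by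
    rw [h1, ← sub_eq_zero]
    refine half _ ?_
    calc _ = D.N (-δ * X) (β + β) (γ + γ) (δ + δ) * D.T
          - D.T * D.N (-δ * X) (β + β) (γ + γ) (δ + δ) := by
            rw [hT]; simp only [D.N_mul, D.N_sub, D.N_add]; refine D.N_congr ?_ ?_ ?_ ?_ <;> ring
      _ = 0 := by rw [hE, zero_mul, mul_zero, sub_zero]
  have kA : (z.toLinearMap : Module.End F V) * D.A = D.A * z.toLinearMap := by
    rw [h1, ← sub_eq_zero]
    refine half _ ?_
    calc _ = D.N (-δ * X) (β + β) (γ + γ) (δ + δ) * D.A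
          - D.A * D.N (-δ * X) (β + β) (γ + γ) (δ + δ) := by
            rw [hA]; simp only [D.N_mul, D.N_sub, D.N_add]; refine D.N_congr ?_ ?_ ?_ ?_ <;> ring
      _ = 0 := by rw [hE, zero_mul, mul_zero, sub_zero]
  constructor
  · refine LinearEquiv.toLinearMap_injective ?_
    rw [toLinearMap_mul, toLinearMap_mul, D.t_eq, mul_add, add_mul, mul_one, one_mul, kT]
  · refine LinearEquiv.toLinearMap_injective ?_
    rw [toLinearMap_mul, toLinearMap_mul, D.a_eq, mul_add, add_mul, mul_one, one_mul, kA]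

/-- If `c` is nilpotent the group is a `p`-group. -/
lemma isPGroup_of_nilpotent [Nontrivial V] (p : ℕ) [Fact p.Prime] [CharP F p]
    (hc : IsNilpotent D.c) : IsPGroup p D.grp := by
  rintro ⟨g, hg⟩
  obtain ⟨α, β, γ, δ, ⟨h1, -⟩, h0⟩ := D.exists_coeff hg
  haveI : CharP (Module.End F V) p :=
    charP_of_injective_algebraMap (algebraMap F (Module.End F V)).injective p
  set X' : Module.End F V := g.toLinearMap - 1 with hX'
  have hα : α = α.divX * X + 1 := by
    conv_lhs => rw [← Polynomial.divX_mul_X_add α, h0, map_one]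
  set a' := α.divX
  have hcN : D.c = D.N X 0 0 0 := by simp [N, P]
  set R := D.N (a' * a' * X + γ * β) (a' * β + a' * β + δ * β) (a' * γ + a' * γ + γ * δ)
    (a' * δ + a' * δ + δ * δ) with hR
  have hY : X' * X' = D.c * R := by
    rw [hX', h1, ← D.N_one, D.N_sub, D.N_mul, hcN, hR, D.N_mul]
    refine D.N_congr ?_ ?_ ?_ ?_ <;> rw [hα] <;> ring
  obtain ⟨n, hn⟩ := hc
  have hX2n : (X' * X') ^ n = 0 := by
    rw [hY, Commute.mul_pow ?_, hn, zero_mul]
    show D.c * R = R * D.c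
    rw [hcN, hR, D.N_mul, D.N_mul]; refine D.N_congr ?_ ?_ ?_ ?_ <;> ring
  obtain ⟨k, hk⟩ : ∃ k, 2 * n ≤ p ^ k :=
    ⟨2 * n, (Nat.lt_pow_self (Fact.out : p.Prime).one_lt).le⟩
  refine ⟨k, Subtype.ext (LinearEquiv.toLinearMap_injective ?_)⟩
  have hpow : ∀ j : ℕ, ((g ^ j : V ≃ₗ[F] V)).toLinearMap = (g.toLinearMap : Module.End F V) ^ j :=
    fun j => by
      induction j with
      | zero => rfl
      | succ j ih => rw [pow_succ, pow_succ, toLinearMap_mul, ih]
  show (g ^ p ^ k : V ≃ₗ[F] V).toLinearMap = (1 : Module.End F V)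
  rw [hpow, show (g.toLinearMap : Module.End F V) = 1 + X' by rw [hX']; abel,
    add_pow_char_pow_of_commute p _ (Commute.one_left _), one_pow,
    show p ^ k = 2 * n + (p ^ k - 2 * n) by omega, pow_add, pow_mul, pow_two, hX2n, zero_mul,
    add_zero]

/-- In odd characteristic, if `c` is not nilpotent the group has even order. -/
lemma even_card [FiniteDimensional F V] [Finite D.grp] (h2 : (2 : F) ≠ 0) (hc : ¬ IsNilpotent D.c) :
    2 ∣ Nat.card D.grp := by
  by_contra hodd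
  have hodd' : Odd (Nat.card D.grp) := Nat.not_even_iff_odd.1 fun h => hodd (even_iff_two_dvd.1 h)
  haveI : Group.IsSolvable D.grp := Cfsg.Agent.S0205.result hodd'
  -- an invariant irreducible factor
  have hint : IsIntegral F D.c := Algebra.IsIntegral.isIntegral _
  obtain ⟨q, hq, hq0⟩ := Polynomial.exists_eq_pow_rootMultiplicity_mul_and_not_dvd (minpoly F D.c)
    (minpoly.ne_zero hint) 0
  rw [map_zero, sub_zero] at hq hq0
  set k := (minpoly F D.c).rootMultiplicity 0
  have hqu : ¬ IsUnit q := fun hu => hc ⟨k, by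
    have h := minpoly.aeval F D.c
    rw [hq, map_mul, map_pow, aeval_X] at h
    obtain ⟨v, hv⟩ := hu.map (aeval D.c)
    rw [← hv] at h
    exact (Units.mul_left_eq_zero v).1 h⟩
  obtain ⟨f, hf, hfq⟩ := WfDvdMonoid.exists_irreducible_factor hqu (fun h => by
    rw [h, mul_zero] at hq; exact minpoly.ne_zero hint hq)
  have hfX : ¬ f ∣ X := fun h => hq0 ((hf.associated_of_dvd Polynomial.irreducible_X h).dvd_iff_dvd_left.1 hfq)
  obtain ⟨y, hy0, hy⟩ : ∃ y : V, y ≠ 0 ∧ D.P f y = 0 := by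
    by_contra hcon
    have hinj : Function.Injective (D.P f) := (injective_iff_map_eq_zero _).2 fun v hv => by
      by_contra hv0; exact hcon ⟨v, hv0, hv⟩
    obtain ⟨r, hr⟩ : f ∣ minpoly F D.c := hq ▸ hfq.mul_left _
    have h0 : D.P r = 0 := LinearMap.ext fun v => hinj (by
      have := LinearMap.congr_fun (minpoly.aeval F D.c) v
      rw [hr, map_mul] at this
      simpa [P] using this)
    have hr0 : r ≠ 0 := fun h => by rw [h, mul_zero] at hr; exact minpoly.ne_zero hint hr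
    have h1 := Polynomial.degree_le_of_dvd (minpoly.dvd F D.c h0) hr0
    rw [hr, Polynomial.degree_mul, Polynomial.degree_eq_natDegree hf.ne_zero,
      Polynomial.degree_eq_natDegree hr0, ← Nat.cast_add, Nat.cast_le] at h1
    have := hf.natDegree_pos
    omega
  have hPc : ∀ (p : F[X]) (v : V), D.P p (D.c v) = D.P (p * X) v := fun p v => by simp [P]
  have hcP : ∀ (p : F[X]) (v : V), D.c (D.P p v) = D.P (p * X) v := fun p v => by
    rw [mul_comm]; simp [P]
  have hTP : ∀ (p : F[X]) (v : V), D.T (D.P p v) = D.P p (D.T v) :=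
    fun p v => LinearMap.congr_fun (D.T_P p) v
  have hAP : ∀ (p : F[X]) (v : V), D.A (D.P p v) = D.P p (D.A v) :=
    fun p v => LinearMap.congr_fun (D.A_P p) v
  have hann : ∀ (p : F[X]) (v : V), D.P f v = 0 → D.P p v = 0 → v = 0 ∨ f ∣ p := fun p v h1 h2 => by
    by_cases hd : f ∣ p
    · exact Or.inr hd
    · obtain ⟨a, b, hab⟩ := (hf.coprime_iff_not_dvd).2 hd
      left
      have := congrArg (fun r => D.P r v) hab
      simpa [P, h1, h2] using this.symm
  obtain ⟨u, hu0, hu, hTu⟩ : ∃ u : V, u ≠ 0 ∧ D.P f u = 0 ∧ D.T u = 0 := by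
    by_cases hTy : D.T y = 0
    · by_cases hTAy : D.T (D.A y) = 0
      · rcases hann X y hy (by simp [P, c, hTy, hTAy]) with h | h
        · exact absurd h hy0
        · exact absurd h hfX
      · exact ⟨_, hTAy, by rw [← hTP, ← hAP, hy, map_zero, map_zero], by
          simpa using LinearMap.congr_fun D.TT _⟩
    · exact ⟨_, hTy, by rw [← hTP, hy, map_zero], by simpa using LinearMap.congr_fun D.TT _⟩
  have hTAu : D.T (D.A u) = D.c u := by simp [c, hTu]
  have hfA : D.P f (D.A u) = 0 := by rw [← hAP, hu, map_zero]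
  have huniq : ∀ p r : F[X], D.P p u + D.P r (D.A u) = 0 → f ∣ p ∧ f ∣ r := fun p r h => by
    have h1 := congrArg D.T h
    rw [map_add, hTP, hTP, hTu, map_zero, zero_add, map_zero, hTAu, hPc] at h1
    have hr : f ∣ r := by
      rcases hann _ u hu h1 with h | h
      · exact absurd h hu0
      · exact (hf.prime.dvd_or_dvd h).resolve_right hfX
    obtain ⟨r', rfl⟩ := hr
    rw [show D.P (f * r') (D.A u) = 0 by rw [mul_comm]; simp [P, hfA], add_zero] at h
    exact ⟨(hann p u hu h).resolve_left hu0, dvd_mul_right _ _⟩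
  -- the action on the factor
  have hAA : D.A (D.A u) = 0 := by simpa using LinearMap.congr_fun D.AA u
  have hact : ∀ (h : V ≃ₗ[F] V) (α β γ δ : F[X]), D.Coeff h α β γ δ →
      h u = D.P (α + δ * X) u + D.P γ (D.A u) ∧ h (D.A u) = D.P (β * X) u + D.P α (D.A u) := by
    intro h α β γ δ hh
    constructor
    · rw [← LinearEquiv.coe_coe, hh.1, N]
      simp [hTu, hTAu, P, add_comm, add_left_comm]
    · rw [← LinearEquiv.coe_coe, hh.1, N]
      simp [hTAu, hAA, P, add_comm]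
  -- elements fixing the factor
  set N : Subgroup D.grp :=
    { carrier := {g | (g : V ≃ₗ[F] V) u = u ∧ (g : V ≃ₗ[F] V) (D.A u) = D.A u}
      one_mem' := ⟨rfl, rfl⟩
      mul_mem' := fun {g h} hg hh => by simp_all [LinearEquiv.mul_apply]
      inv_mem' := fun {g} hg => ⟨by
          show ((g : V ≃ₗ[F] V)⁻¹) u = u
          conv_lhs => rw [← hg.1]
          exact (g : V ≃ₗ[F] V).symm_apply_apply u, by
          show ((g : V ≃ₗ[F] V)⁻¹) (D.A u) = D.A u
          conv_lhs => rw [← hg.2]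
          exact (g : V ≃ₗ[F] V).symm_apply_apply _⟩ } with hN
  have htN : (⟨D.t, D.t_mem⟩ : D.grp) ∉ N := fun h => by
    have h' : D.t (D.A u) = D.A u := h.2
    rw [(hact _ _ _ _ _ D.coeff_t).2] at h'
    simp [P] at h'
    rcases hann X u hu (by simp [P, h']) with h0 | h0
    · exact hu0 h0
    · exact hfX h0
  obtain ⟨n, hn, hn'⟩ : ∃ n, ¬ derivedSeries D.grp n ≤ N ∧ derivedSeries D.grp (n + 1) ≤ N := by
    by_contra hcon
    push Not at hcon
    have : ∀ n, ¬ derivedSeries D.grp n ≤ N := fun n => by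
      induction n with
      | zero => rw [derivedSeries_zero]; exact fun h => htN (h (Subgroup.mem_top _))
      | succ n ih => exact hcon n ih
    obtain ⟨n, hn⟩ := (Group.isSolvable_def _).1 ‹Group.IsSolvable D.grp›
    exact this n (hn ▸ bot_le)
  obtain ⟨g, hgD, hgN⟩ := SetLike.not_le_iff_exists.1 hn
  have hcomm : ∀ (x : D.grp) (v : V), (v = u ∨ v = D.A u) →
      ((g : V ≃ₗ[F] V) * ((x : V ≃ₗ[F] V) * (g : V ≃ₗ[F] V) * (x : V ≃ₗ[F] V)⁻¹)) v =
        ((x : V ≃ₗ[F] V) * (g : V ≃ₗ[F] V) * (x : V ≃ₗ[F] V)⁻¹ * (g : V ≃ₗ[F] V)) v := by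
    intro x v hv
    have hg' : x * g * x⁻¹ ∈ derivedSeries D.grp n :=
      (derivedSeries_normal D.grp n).conj_mem g hgD x
    have hk : (g * (x * g * x⁻¹))⁻¹ * ((x * g * x⁻¹) * g) ∈ N := hn' (by
      rw [derivedSeries_succ]
      have := Subgroup.commutator_mem_commutator (inv_mem hg') (inv_mem hgD)
      simpa [commutatorElement_def, mul_assoc] using this)
    have h2 : ((g * (x * g * x⁻¹))⁻¹ * ((x * g * x⁻¹) * g) : D.grp).1 v = v := by
      rcases hv with rfl | rfl
      · exact hk.1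
      · exact hk.2
    have h3 := congrArg (g * (x * g * x⁻¹) : D.grp).1 h2
    rw [← LinearEquiv.mul_apply, ← Subgroup.coe_mul, mul_inv_cancel_left] at h3
    exact h3.symm
  obtain ⟨α, β, γ, δ, hgc, -⟩ := D.exists_coeff g.2
  have hdiff : ∀ (p r p' r' : F[X]),
      D.P p u + D.P r (D.A u) = D.P p' u + D.P r' (D.A u) → f ∣ p - p' ∧ f ∣ r - r' :=
    fun p r p' r' h => huniq _ _ (by
      have h0 := sub_eq_zero.2 h
      simp only [P, map_sub, LinearMap.sub_apply] at h0 ⊢
      rw [← h0]; abel)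
  have h2f : ¬ f ∣ 2 := fun h => hf.not_isUnit (isUnit_of_dvd_unit h (by
    rw [← map_ofNat Polynomial.C 2]; exact Polynomial.isUnit_C.2 (Ne.isUnit h2)))
  -- compare the two products on the factor
  have key : ∀ (x : V ≃ₗ[F] V) (hx : x ∈ D.grp) (α' β' γ' δ' : F[X]),
      D.Coeff (x * (g : V ≃ₗ[F] V) * x⁻¹) α' β' γ' δ' →
      f ∣ γ * δ' * X - γ' * δ * X ∧ f ∣ (δ * β' * X - δ' * β * X) * X := by
    intro x hx α' β' γ' δ' hc'
    have h1 := D.coeff_mul hgc hc'
    have h2 := D.coeff_mul hc' hgc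
    have hu' := hcomm ⟨x, hx⟩ u (Or.inl rfl)
    have hA' := hcomm ⟨x, hx⟩ (D.A u) (Or.inr rfl)
    simp only at hu' hA'
    rw [(hact _ _ _ _ _ h1).1, (hact _ _ _ _ _ h2).1] at hu'
    rw [(hact _ _ _ _ _ h1).2, (hact _ _ _ _ _ h2).2] at hA'
    have e1 := (hdiff _ _ _ _ hu').2
    have e2 := (hdiff _ _ _ _ hA').1
    constructor
    · convert e1 using 1; ring
    · convert e2 using 1; ring
  have hct := D.coeff_mul (D.coeff_mul D.coeff_t hgc) (D.coeff_inv D.coeff_t)
  have hca := D.coeff_mul (D.coeff_mul D.coeff_a hgc) (D.coeff_inv D.coeff_a)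
  obtain ⟨et, et'⟩ := key _ D.t_mem _ _ _ _ hct
  obtain ⟨-, ea'⟩ := key _ D.a_mem _ _ _ _ hca
  have hγ : f ∣ γ := by
    have h : f ∣ 2 * γ * γ * X := by convert et using 1; ring
    rcases hf.prime.dvd_or_dvd h with h | h
    · rcases hf.prime.dvd_or_dvd h with h | h
      · exact (hf.prime.dvd_or_dvd h).resolve_left h2f
      · exact h
    · exact absurd h hfX
  have hβ : f ∣ β := by
    have h : f ∣ 2 * β * β * X * X := by convert ea' using 1; ring
    rcases hf.prime.dvd_or_dvd h with h | h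
    · rcases hf.prime.dvd_or_dvd h with h | h
      · rcases hf.prime.dvd_or_dvd h with h | h
        · exact (hf.prime.dvd_or_dvd h).resolve_left h2f
        · exact h
      · exact absurd h hfX
    · exact absurd h hfX
  have hδ : f ∣ δ := by
    haveI := Fact.mk hf
    have hX0 : AdjoinRoot.root f ≠ 0 := fun h => hfX (by
      rw [← AdjoinRoot.mk_eq_zero, AdjoinRoot.mk_X, h])
    have hβ0 := (AdjoinRoot.mk_eq_zero (f := f)).2 hβ
    have hγ0 := (AdjoinRoot.mk_eq_zero (f := f)).2 hγ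
    have h := (AdjoinRoot.mk_eq_zero (f := f)).2 et'
    simp [hβ0, hγ0, AdjoinRoot.mk_X, hX0] at h
    exact h
  have hzero : ∀ (p : F[X]), f ∣ p → D.P p u = 0 ∧ D.P p (D.A u) = 0 := fun p ⟨r, hr⟩ => by
    rw [hr, mul_comm]; simp [P, hu, hfA]
  obtain ⟨hgu, hgA⟩ := hact _ _ _ _ _ hgc
  obtain ⟨hgi, -⟩ := hact _ _ _ _ _ (D.coeff_inv hgc)
  have hαδ : D.P (α + δ * X) u = D.P α u := by
    simp only [P, map_add, LinearMap.add_apply]
    exact add_eq_left.2 (hzero _ (hδ.mul_right X)).1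
  rw [(hzero γ hγ).2, add_zero, hαδ] at hgu
  rw [(hzero _ (hβ.mul_right X)).1, zero_add] at hgA
  rw [(hzero _ (dvd_neg.2 hγ)).2, add_zero,
    show α + δ * X + -δ * X = α by ring] at hgi
  set gg : V ≃ₗ[F] V := (g : V ≃ₗ[F] V)
  have hg0 : ∀ (p : F[X]) (v : V), gg (D.P p v) = D.P p (gg v) := fun p v => by
    have hP : D.P p = D.N p 0 0 0 := by simp [Pair.N, P]
    rw [← LinearEquiv.coe_coe, hgc.1, ← Module.End.mul_apply, ← Module.End.mul_apply]
    refine LinearMap.congr_fun ?_ v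
    rw [hP, D.N_mul, D.N_mul]
    refine D.N_congr ?_ ?_ ?_ ?_ <;> ring
  -- `g²` fixes the factor
  have hsq : g ^ 2 ∈ N := by
    have h1 : gg (gg⁻¹ u) = u := gg.apply_symm_apply u
    rw [hgi, hg0, hgu] at h1
    have hpow : ((g ^ 2 : D.grp) : V ≃ₗ[F] V) = gg * gg := by rw [pow_two]; rfl
    refine ⟨?_, ?_⟩
    · rw [hpow, LinearEquiv.mul_apply, hgu, hg0, hgu, h1]
    · rw [hpow, LinearEquiv.mul_apply, hgA, hg0, hgA, ← hAP, ← hAP, h1]
  refine hgN ?_
  obtain ⟨j, hj⟩ : Odd (orderOf g) := hodd'.of_dvd_nat (orderOf_dvd_natCard g)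
  have hgeq : g = ((g ^ 2) ^ j)⁻¹ := by
    rw [eq_inv_iff_mul_eq_one, ← pow_mul, ← pow_succ', ← hj, pow_orderOf_eq_one]
  rw [hgeq]
  exact inv_mem (pow_mem hsq j)

/-- In odd characteristic there is a non-trivial element centralising both generators. -/
theorem exists_central [FiniteDimensional F V] [Nontrivial V] [Finite F] (p : ℕ) [Fact p.Prime]
    [CharP F p] (hp : p ≠ 2) (ht : D.t ≠ 1) :
    ∃ z ∈ D.grp, z ≠ 1 ∧ z * D.t = D.t * z ∧ z * D.a = D.a * z := by
  haveI : Finite V := Module.finite_of_finite F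
  haveI : Finite (V ≃ₗ[F] V) := Finite.of_injective (fun e => (e : V → V)) DFunLike.coe_injective
  have h2 : (2 : F) ≠ 0 := fun h => hp (by
    have := (CharP.cast_eq_zero_iff F p 2).1 (by exact_mod_cast h)
    exact (Nat.prime_dvd_prime_iff_eq Fact.out Nat.prime_two).1 this)
  by_cases hc : IsNilpotent D.c
  · haveI : Nontrivial D.grp :=
      ⟨⟨⟨D.t, D.t_mem⟩, 1, fun h => ht (congrArg Subtype.val h)⟩⟩
    haveI := (D.isPGroup_of_nilpotent p hc).center_nontrivial
    obtain ⟨z, hz⟩ := exists_ne (1 : Subgroup.center D.grp)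
    refine ⟨z.1.1, z.1.2, fun h => hz (Subtype.ext (Subtype.ext h)), ?_, ?_⟩
    · exact (congrArg Subtype.val (Subgroup.mem_center_iff.1 z.2 ⟨D.t, D.t_mem⟩)).symm
    · exact (congrArg Subtype.val (Subgroup.mem_center_iff.1 z.2 ⟨D.a, D.a_mem⟩)).symm
  · haveI := Fact.mk Nat.prime_two
    obtain ⟨z, hz⟩ := exists_prime_orderOf_dvd_card' 2 (D.even_card h2 hc)
    have hz2 : z ^ 2 = 1 := hz ▸ pow_orderOf_eq_one z
    refine ⟨z.1, z.2, fun h => ?_, D.involution_commute h2 z.2 ?_⟩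
    · rw [show z = 1 from Subtype.ext h, orderOf_one] at hz
      omega
    · have hzi : z⁻¹ = z := by rw [inv_eq_iff_mul_eq_one, ← pow_two, hz2]
      exact congrArg Subtype.val hzi

end Pair

/-- Two involutions have a common centralising element, or an involution exchanging them. -/
theorem dihedral {G : Type*} [Group G] [Finite G] {t a : G} (ht : t * t = 1) (ha : a * a = 1) :
    (∃ k ∈ Subgroup.closure {t, a}, k ≠ 1 ∧ k * t = t * k ∧ k * a = a * k) ∨
    ∃ g ∈ Subgroup.closure {t, a}, g * g = 1 ∧ g * t * g⁻¹ = a ∧ g * a * g⁻¹ = t := by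
  have htm : t ∈ Subgroup.closure {t, a} := Subgroup.subset_closure (by simp)
  have ham : a ∈ Subgroup.closure {t, a} := Subgroup.subset_closure (by simp)
  set w := t * a with hw
  have hwm : w ∈ Subgroup.closure {t, a} := mul_mem htm ham
  have hti : t⁻¹ = t := by rw [inv_eq_iff_mul_eq_one, ht]
  have hai : a⁻¹ = a := by rw [inv_eq_iff_mul_eq_one, ha]
  have hconj : ∀ n : ℕ, t * w ^ n * t = (w ^ n)⁻¹ := fun n => by
    have h1 : (t * w * t⁻¹) = w⁻¹ := by
      rw [hw, mul_inv_rev, hti, hai, ← mul_assoc t t, ht, one_mul]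
    calc t * w ^ n * t = (t * w * t⁻¹) ^ n := by rw [conj_pow, hti]
      _ = (w ^ n)⁻¹ := by rw [h1, inv_pow]
  rcases Nat.even_or_odd (orderOf w) with ⟨i, hi⟩ | ⟨i, hi⟩
  · left
    have hpos := orderOf_pos w
    have hk2 : w ^ i * w ^ i = 1 := by rw [← pow_add, ← hi, pow_orderOf_eq_one]
    have hki : (w ^ i)⁻¹ = w ^ i := by rw [inv_eq_iff_mul_eq_one, hk2]
    have hkt : w ^ i * t = t * w ^ i := by
      conv_lhs => rw [← hki, ← hconj i]
      rw [mul_assoc, mul_assoc, ht, mul_one]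
    refine ⟨w ^ i, pow_mem hwm i, pow_ne_one_of_lt_orderOf (by omega) (by omega), hkt, ?_⟩
    have ha' : a = t * w := by rw [hw, ← mul_assoc, ht, one_mul]
    rw [ha', ← mul_assoc, hkt, mul_assoc, mul_assoc, ← pow_succ, ← pow_succ']
  · right
    set g := w ^ i * t with hg
    have hg1 : g * g = 1 := by
      rw [hg, show w ^ i * t * (w ^ i * t) = w ^ i * (t * w ^ i * t) by simp only [mul_assoc],
        hconj, mul_inv_cancel]
    have hgi : g⁻¹ = g := by rw [inv_eq_iff_mul_eq_one, hg1]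
    have h2i : w ^ (2 * i) = a * t := by
      have h := pow_orderOf_eq_one w
      rw [hi, pow_succ] at h
      rw [eq_inv_of_mul_eq_one_left h, hw, mul_inv_rev, hti, hai]
    have hgt : g * t * g⁻¹ = a := by
      have e : g * t * g = w ^ i * (w ^ i * t) := by
        rw [hg, mul_assoc (w ^ i) t t, ht, mul_one]
      rw [hgi, e, ← mul_assoc, ← pow_add, ← two_mul, h2i, mul_assoc, ht, mul_one]
    refine ⟨g, mul_mem (pow_mem hwm i) htm, hg1, hgt, ?_⟩
    rw [← hgt, show g * (g * t * g⁻¹) * g⁻¹ = (g * g) * t * (g * g)⁻¹ by group, hg1]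
    simp

end Cfsg.Agent.MaxSub.TensorPow.TwoSq
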