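import Cfsg.Agent.MaxSub.TensorPow.SelBase
import Cfsg.Agent.MaxSub.TensorPow.TwoSquareZero

/-!
A group containing `SL(U) ⊗ 1` without non-scalar parameters lies in every subgroup `N`
containing the elements mapping a line `v ⊗ W` to another and closed under the conjugation
criterion `hB2`.
-/

set_option autoImplicit false
set_option linter.style.haveILetI false
set_option maxHeartbeats 1000000
set_option linter.unusedSectionVars false

namespace Cfsg.Agent.MaxSub.TensorPow

open Module Matrix Cfsg.Agent.MaxSub.ExtField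

variable {F : Type*} [Field F] [Finite F] {m : ℕ} {W : Type*} [AddCommGroup W] [Module F W]
  [FiniteDimensional F W] [Nontrivial W] {G N : Subgroup ((Fin m → W) ≃ₗ[F] (Fin m → W))}

/-- The selected setting. -/
structure Setting (G N : Subgroup ((Fin m → W) ≃ₗ[F] (Fin m → W)))
    (x : (Fin m → W) ≃ₗ[F] (Fin m → W)) (v₀ v φ₀ : Fin m → F)
    (a : (Fin m → W) ≃ₗ[F] (Fin m → W)) : Prop where
  hm : 3 ≤ m
  hG : HasFactor G
  hP : NoPar G
  hB1 : ∀ g ∈ G, ∀ v v' : Fin m → F, v ≠ 0 → v' ≠ 0 →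
    (∀ w, g (ins v w) ∈ line W v') → g ∈ N
  hx : x ∈ G
  hxN : x ∉ N
  hv₀ : v₀ ≠ 0
  hv : v ≠ 0
  hsel : Selected x v₀ v
  hφ₀ : φ₀ ≠ 0
  hφ₀v : φ₀ ⬝ᵥ v₀ = 0
  haG : a ∈ G
  ha : ∀ X, a X = X + x (root v₀ φ₀ LinearMap.id (x⁻¹ X))

variable {x a : (Fin m → W) ≃ₗ[F] (Fin m → W)} {v₀ v φ₀ : Fin m → F}

namespace Setting

/-- `v ⊗ W + x(v₀ ⊗ W)`. -/
abbrev M₀ (x : (Fin m → W) ≃ₗ[F] (Fin m → W)) (v₀ v : Fin m → F) : Submodule F (Fin m → W) :=
  line W v ⊔ (line W v₀).map x.toLinearMap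

lemma a_mem (S : Setting G N x v₀ v φ₀ a) (X : Fin m → W) :
    a X - X ∈ (line W v₀).map x.toLinearMap := by
  rw [S.ha, add_sub_cancel_left]
  exact ⟨_, ⟨_, rfl⟩, rfl⟩

lemma a_fix (S : Setting G N x v₀ v φ₀ a) (w : W) : a (x (ins v₀ w)) = x (ins v₀ w) := by
  rw [S.ha, show x⁻¹ (x (ins v₀ w)) = ins v₀ w from x.symm_apply_apply _, root_apply, ev_ins,
    S.hφ₀v, zero_smul, map_zero, map_zero, map_zero, add_zero]

lemma not_isT (S : Setting G N x v₀ v φ₀ a) : ¬ IsT a := by
  intro hT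
  obtain ⟨w₁, hw₁⟩ := exists_ne (0 : W)
  have hrange : finrank F (LinearMap.range (a.toLinearMap - LinearMap.id)) ≤ finrank F W := by
    refine (Submodule.finrank_mono (t := LinearMap.range (x.toLinearMap ∘ₗ ins (W := W) v₀))
      ?_).trans (LinearMap.finrank_range_le _)
    rintro _ ⟨X, rfl⟩
    obtain ⟨_, ⟨w, rfl⟩, h⟩ := S.a_mem X
    exact ⟨w, h⟩
  have hsq : ∀ X, a (a X - X) = a X - X := fun X => by
    obtain ⟨_, ⟨w, rfl⟩, h⟩ := S.a_mem X
    rw [← h]; exact S.a_fix w
  rcases one_factor S.hm hT hsq hrange with ⟨B, hB⟩ | ⟨k, hk⟩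
  · obtain ⟨u, hu⟩ : ∃ u : Fin m → F, B *ᵥ u - u ≠ 0 := by
      by_contra hc
      push Not at hc
      obtain ⟨y, hy⟩ := exists_dot_one S.hφ₀
      rw [dotProduct_comm] at hy
      have h1 : a (x (ins y w₁)) = x (ins y w₁) := by
        conv_lhs => rw [eq_sum_ins (F := F) (x (ins y w₁)), map_sum]
        simp only [hB, sub_eq_zero.1 (hc _)]
        exact (eq_sum_ins _).symm
      rw [S.ha, show x⁻¹ (x (ins y w₁)) = ins y w₁ from x.symm_apply_apply _, add_eq_left,
        root_apply, ev_ins, hy, one_smul, LinearMap.id_apply, map_eq_zero_iff _ x.injective] at h1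
      exact hw₁ (ins_injective S.hv₀ (h1.trans (map_zero _).symm))
    have hle : line W (B *ᵥ u - u) ≤ (line W v₀).map x.toLinearMap := by
      rintro _ ⟨w, rfl⟩
      have := S.a_mem (ins u w)
      rwa [hB, ← ins_sub] at this
    have heq := Submodule.eq_of_le_of_finrank_le hle (by
      rw [LinearEquiv.finrank_map_eq,
        LinearMap.finrank_range_of_inj (ins_injective S.hv₀),
        LinearMap.finrank_range_of_inj (ins_injective hu)])
    exact S.hxN (S.hB1 x S.hx v₀ _ S.hv₀ hu fun w => heq ▸ ⟨_, ⟨w, rfl⟩, rfl⟩)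
  · obtain ⟨ψ, hψ, hψv, -⟩ := exists_perp_two S.hm v v
    obtain ⟨s, hs, hsv⟩ := exists_perp_notin' S.hm ψ S.hv
    obtain ⟨σ, hσ, hσv⟩ := exists_perp hsv
    have hkw : ∀ w, k w = w := fun w => by
      have h1 := S.a_mem (ins s w)
      rw [hk, ← map_sub] at h1
      obtain ⟨w', hw'⟩ := inter S.hsel hψ hψv (Submodule.mem_sup_right h1)
        (by rw [ev_ins, hs, zero_smul])
      have := congrArg (ev σ) hw'
      rw [ev_ins, ev_ins, hσ, hσv v (Submodule.mem_span_singleton_self v), zero_smul,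
        one_smul] at this
      exact sub_eq_zero.1 this.symm
    obtain ⟨y, hy⟩ := exists_dot_one S.hφ₀
    rw [dotProduct_comm] at hy
    have h1 : a (x (ins y w₁)) = x (ins y w₁) := by
      conv_lhs => rw [eq_sum_ins (F := F) (x (ins y w₁)), map_sum]
      simp only [hk, hkw]
      exact (eq_sum_ins _).symm
    rw [S.ha, show x⁻¹ (x (ins y w₁)) = ins y w₁ from x.symm_apply_apply _, add_eq_left,
      root_apply, ev_ins, hy, one_smul, LinearMap.id_apply, map_eq_zero_iff _ x.injective] at h1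
    exact hw₁ (ins_injective S.hv₀ (h1.trans (map_zero _).symm))

variable {φ : Fin m → F} {t : (Fin m → W) ≃ₗ[F] (Fin m → W)}

lemma closure_sub (S : Setting G N x v₀ v φ₀ a) (ht : ∀ X, t X = X + root v φ LinearMap.id X)
    {g : (Fin m → W) ≃ₗ[F] (Fin m → W)} (hg : g ∈ Subgroup.closure {t, a}) (X : Fin m → W) :
    g X - X ∈ M₀ x v₀ v := by
  refine Subgroup.closure_induction (p := fun g _ => ∀ X, g X - X ∈ M₀ x v₀ v) ?_ ?_ ?_ ?_ hg X
  · rintro g (rfl | rfl) X
    · rw [ht, add_sub_cancel_left]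
      exact Submodule.mem_sup_left ⟨_, rfl⟩
    · exact Submodule.mem_sup_right (S.a_mem X)
  · exact fun X => by simp
  · intro g h _ _ ihg ihh X
    rw [LinearEquiv.mul_apply, ← sub_add_sub_cancel (g (h X)) (h X) X]
    exact add_mem (ihg _) (ihh _)
  · intro g _ ih X
    have := ih (g⁻¹ X)
    rw [show g (g⁻¹ X) = X from g.apply_symm_apply X] at this
    have := neg_mem this
    rwa [neg_sub] at this

lemma closure_le (S : Setting G N x v₀ v φ₀ a) (htG : t ∈ G) :
    Subgroup.closure {t, a} ≤ G :=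
  (Subgroup.closure_le G).2 (by rintro g (rfl | rfl); exacts [htG, S.haG])

lemma apply_t_line (hφv : φ ⬝ᵥ v = 0) (ht : ∀ X, t X = X + root v φ LinearMap.id X) (w : W) :
    t (ins v w) = ins v w := by
  rw [ht, root_apply, ev_ins, hφv, zero_smul, map_zero, map_zero, add_zero]

/-- An element fixing `v ⊗ W` as a set and conjugating `G` to itself is `B ⊗ k`, `B v = μ v`. -/
lemma isT_line (S : Setting G N x v₀ v φ₀ a) {h : (Fin m → W) ≃ₗ[F] (Fin m → W)} (hhG : h ∈ G)
    (hline : ∀ w, h (ins v w) ∈ line W v) :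
    ∃ (B : Matrix (Fin m) (Fin m) F) (k : W ≃ₗ[F] W) (μ : F), μ ≠ 0 ∧ B *ᵥ v = μ • v ∧
      ∀ u w, h (ins u w) = ins (B *ᵥ u) (k w) := by
  obtain ⟨B, k, hBk⟩ := isT_of_stab S.hm S.hG S.hG S.hP
    (fun g hg => G.mul_mem (G.mul_mem hhG hg) (G.inv_mem hhG))
    (S := F ∙ v) (by simpa using S.hv) (fun h0 => by
      have := congrArg (fun P : Submodule F (Fin m → F) => finrank F P) h0
      simp only [finrank_span_singleton S.hv, finrank_top, finrank_fin_fun] at this
      have := S.hm; omega)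
    (fun X hX => by
      have : block W (F ∙ v) ≤ (line W v).comap h.toLinearMap := block_le fun u hu w => by
        obtain ⟨c, rfl⟩ := Submodule.mem_span_singleton.1 hu
        simp only [Submodule.mem_comap, LinearEquiv.coe_coe, ins_smul, map_smul]
        exact Submodule.smul_mem _ c (hline w)
      obtain ⟨w, hw⟩ := this hX
      rw [show h X = ins v w from hw.symm]
      exact ins_mem_block (Submodule.mem_span_singleton_self v) w)
  obtain ⟨w₁, hw₁⟩ := exists_ne (0 : W)
  have hk1 : k w₁ ≠ 0 := fun h0 => hw₁ (k.injective (h0.trans (map_zero k).symm))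
  obtain ⟨μ, hμ⟩ : ∃ μ : F, μ • v = B *ᵥ v := by
    refine Submodule.mem_span_singleton.1 (mem_span_of_perp fun ψ hψ => ?_)
    have h1 := line_le_ker hψ (hline w₁)
    rw [hBk, ev_ins] at h1
    exact (smul_eq_zero.1 h1).resolve_right hk1
  refine ⟨B, k, μ, fun h0 => hw₁ (ins_injective S.hv (h.injective ?_)), hμ.symm, hBk⟩
  rw [hBk, ← hμ, h0, zero_smul, ins_zero, map_zero, map_zero]

lemma scalar_k (S : Setting G N x v₀ v φ₀ a) (hφ : φ ≠ 0) (hφv : φ ⬝ᵥ v = 0)
    {h : (Fin m → W) ≃ₗ[F] (Fin m → W)} {B : Matrix (Fin m) (Fin m) F} {k : W ≃ₗ[F] W}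
    (hBk : ∀ u w, h (ins u w) = ins (B *ᵥ u) (k w)) (hM : ∀ X, h X - X ∈ M₀ x v₀ v)
    {s : Fin m → F} (hs : φ ⬝ᵥ s = 0) (hBs : φ ⬝ᵥ (B *ᵥ s) = 0) (hsv : s ∉ F ∙ v) :
    ∃ c : F, c ≠ 0 ∧ ∀ w, k w = c • w := by
  obtain ⟨σ, hσ, hσv⟩ := exists_perp hsv
  set c := σ ⬝ᵥ (B *ᵥ s)
  have hc : ∀ w, c • k w = w := fun w => by
    obtain ⟨w', hw'⟩ := inter S.hsel hφ hφv (hM (ins s w))
      (by rw [map_sub, hBk, ev_ins, ev_ins, hBs, hs, zero_smul, zero_smul, sub_zero])
    have := congrArg (ev σ) hw'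
    rw [hBk, map_sub, ev_ins, ev_ins, ev_ins, hσ, hσv v (Submodule.mem_span_singleton_self v),
      zero_smul, one_smul, eq_comm, sub_eq_zero] at this
    exact this
  obtain ⟨w₁, hw₁⟩ := exists_ne (0 : W)
  have hc0 : c ≠ 0 := fun h0 => hw₁ (by rw [← hc w₁, h0, zero_smul])
  exact ⟨c⁻¹, inv_ne_zero hc0, fun w => by rw [eq_inv_smul_iff₀ hc0, hc]⟩

/-- Elements of the generated group centralising both generators are trivial. -/
lemma centre_trivial (S : Setting G N x v₀ v φ₀ a) (hφ : φ ≠ 0) (hφv : φ ⬝ᵥ v = 0) (htG : t ∈ G)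
    (ht : ∀ X, t X = X + root v φ LinearMap.id X) {z : (Fin m → W) ≃ₗ[F] (Fin m → W)}
    (hz : z ∈ Subgroup.closure {t, a}) (hzt : z * t = t * z) (hza : z * a = a * z) : z = 1 := by
  obtain ⟨w₁, hw₁⟩ := exists_ne (0 : W)
  have hzT : ∀ X, z (ins v (ev φ X)) = ins v (ev φ (z X)) := fun X => by
    have := congrFun (congrArg DFunLike.coe hzt) X
    simp only [LinearEquiv.mul_apply, ht, map_add, add_right_inj] at this
    simpa [root_apply, -ev_apply] using this
  obtain ⟨y, hy⟩ := exists_dot_one hφ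
  rw [dotProduct_comm] at hy
  obtain ⟨B, k, μ, hμ0, hμ, hBk⟩ := S.isT_line (S.closure_le htG hz) fun w => by
    have := hzT (ins y w)
    rw [ev_ins, hy, one_smul] at this
    exact ⟨_, this.symm⟩
  obtain ⟨s, hs, hsv⟩ := exists_perp_notin' S.hm φ S.hv
  obtain ⟨c, hc0, hc⟩ := S.scalar_k hφ hφv hBk (fun X => S.closure_sub ht hz X) hs (by
    have := hzT (ins s w₁)
    rw [ev_ins, hs, zero_smul, map_zero, map_zero, hBk, ev_ins] at this
    have h1 := ins_injective S.hv (this.symm.trans (map_zero _).symm)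
    exact (smul_eq_zero.1 h1).resolve_right
      fun h0 => hw₁ (k.injective (h0.trans (map_zero k).symm))) hsv
  -- `z = B' ⊗ 1`
  set α : (Fin m → F) →ₗ[F] (Fin m → F) := Matrix.toLin' (c • B) - (c * μ) • LinearMap.id with hα
  have hzform : ∀ u w, z (ins u w) = (c * μ) • ins u w + ins (α u) w := fun u w => by
    rw [hBk, hc, hα]
    funext i
    simp [smul_smul, mul_comm]
    rw [← add_smul]; congr 1; ring
  set ν := c * μ
  by_cases hα0 : α = 0
  · -- scalar
    have hzX : ∀ X, z X = ν • X := fun X => by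
      conv_lhs => rw [eq_sum_ins (F := F) X, map_sum]
      simp only [hzform, hα0, LinearMap.zero_apply, ins_zero, add_zero, ← Finset.smul_sum]
      rw [← eq_sum_ins (F := F) X]
    obtain ⟨X, hX0, hXt, hXa⟩ : ∃ X, X ≠ 0 ∧ t X = X ∧ a X = X := by
      let L : (Fin m → W) →ₗ[F] W × W := (ev φ).prod (ev φ₀ ∘ₗ x.symm.toLinearMap)
      have hlt : finrank F (W × W) < finrank F (Fin m → W) := by
        rw [Module.finrank_prod, Module.finrank_pi_fintype, Finset.sum_const, Finset.card_univ,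
          Fintype.card_fin, smul_eq_mul]
        have := S.hm
        have := Module.finrank_pos (R := F) (M := W)
        nlinarith
      obtain ⟨X, hX, hX0⟩ := Submodule.exists_mem_ne_zero_of_ne_bot
        (LinearMap.ker_ne_bot_of_finrank_lt (f := L) hlt)
      simp only [L, LinearMap.mem_ker, LinearMap.prod_apply, Function.prod, Prod.mk_eq_zero,
        LinearMap.comp_apply, LinearEquiv.coe_coe] at hX
      refine ⟨X, hX0, ?_, ?_⟩
      · rw [ht, root_apply, hX.1, map_zero, map_zero, add_zero]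
      · rw [S.ha, root_apply, show x⁻¹ X = x.symm X from rfl, hX.2, map_zero, map_zero, map_zero,
          add_zero]
    have hzfix : z X = X := by
      refine Subgroup.closure_induction (p := fun g _ => g X = X) ?_ ?_ ?_ ?_ hz
      · rintro g (rfl | rfl) <;> assumption
      · rfl
      · intro g h _ _ hg hh; rw [LinearEquiv.mul_apply, hh, hg]
      · intro g _ hg; exact g.injective (by rw [self_inv_apply, hg])
    rw [hzX] at hzfix
    have hν : ν = 1 := by
      by_contra h1
      refine hX0 ((smul_eq_zero.1 (show (ν - 1) • X = 0 by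
        rw [sub_smul, one_smul, hzfix, sub_self])).resolve_left (sub_ne_zero.2 h1))
    refine LinearEquiv.ext fun X => ?_
    rw [hzX, hν, one_smul]; rfl
  · exfalso
    have hαv : α v = 0 := by
      rw [hα]
      simp [hμ, smul_smul]
      exact sub_self _
    have hzmem : ∀ X, z X - ν • X ∈ block W (LinearMap.range α) := fun X => by
      conv in z X => rw [eq_sum_ins (F := F) X, map_sum]
      conv in ν • X => rw [eq_sum_ins (F := F) X, Finset.smul_sum]
      rw [← Finset.sum_sub_distrib]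
      refine sum_mem fun i _ => ?_
      rw [hzform, add_sub_cancel_left]
      exact ins_mem_block (LinearMap.mem_range_self α _) _
    have hsurj : block W (LinearMap.range α) ≤
        LinearMap.range (z.toLinearMap - ν • LinearMap.id) := block_le fun u hu w => by
      obtain ⟨u', rfl⟩ := hu
      exact ⟨ins u' w, by simp [hzform]⟩
    refine S.not_isT (isT_of_stab S.hm S.hG S.hG S.hP
      (fun g hg => G.mul_mem (G.mul_mem S.haG hg) (G.inv_mem S.haG))
      (S := LinearMap.range α) (fun h0 => hα0 (LinearMap.range_eq_bot.1 h0)) (fun h0 => S.hv ?_)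
      fun X hX => ?_)
    · exact LinearMap.injective_iff_surjective.2 (LinearMap.range_eq_top.1 h0)
        (hαv.trans (map_zero α).symm)
    · obtain ⟨Y, rfl⟩ := hsurj hX
      have hcomm : a (z Y) = z (a Y) := by
        rw [← LinearEquiv.mul_apply, ← hza, LinearEquiv.mul_apply]
      simp only [LinearMap.sub_apply, LinearMap.smul_apply, LinearMap.id_apply,
        LinearEquiv.coe_coe, map_sub, map_smul, hcomm]
      exact hzmem _

end Setting

end Cfsg.Agent.MaxSub.TensorPow
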