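import Cfsg.Agent.MaxSub.TensorPow.Sel

/-!
A group containing `SL(U) ⊗ 1`, without non-scalar parameters, lies in the subgroup `N`.
-/

set_option autoImplicit false
set_option linter.style.haveILetI false
set_option linter.unusedSectionVars false
set_option maxHeartbeats 1000000

namespace Cfsg.Agent.MaxSub.TensorPow

open Module Matrix Cfsg.Agent.MaxSub.ExtField

variable {F : Type*} [Field F] [Finite F] {m : ℕ} {W : Type*} [AddCommGroup W] [Module F W]
  [FiniteDimensional F W] [Nontrivial W] {G N : Subgroup ((Fin m → W) ≃ₗ[F] (Fin m → W))}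
  {x a : (Fin m → W) ≃ₗ[F] (Fin m → W)} {v₀ v φ₀ φ φ' : Fin m → F}

namespace Setting

lemma closure_fix {t g : (Fin m → W) ≃ₗ[F] (Fin m → W)} (hg : g ∈ Subgroup.closure {t, a})
    {X : Fin m → W} (h1 : t X = X) (h2 : a X = X) : g X = X := by
  refine Subgroup.closure_induction (p := fun g _ => g X = X) ?_ ?_ ?_ ?_ hg
  · rintro g (rfl | rfl) <;> assumption
  · rfl
  · intro g h _ _ hg hh; rw [LinearEquiv.mul_apply, hh, hg]
  · intro g _ hg; exact g.injective (by rw [self_inv_apply, hg])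

/-- In characteristic two each root of the line gives an element exchanging the two lines. -/
lemma exists_swap [CharP F 2] (S : Setting G N x v₀ v φ₀ a) (hφ : φ ≠ 0) (hφv : φ ⬝ᵥ v = 0) :
    ∃ t g : (Fin m → W) ≃ₗ[F] (Fin m → W), t ∈ G ∧ g ∈ Subgroup.closure {t, a} ∧
      (∀ X, t X = X + root v φ LinearMap.id X) ∧ g * g = 1 ∧ g * t * g⁻¹ = a ∧ g * a * g⁻¹ = t := by
  obtain ⟨t, htG, ht⟩ := S.hG v φ hφv
  haveI : Finite W := Module.finite_of_finite F
  haveI : Finite ((Fin m → W) ≃ₗ[F] (Fin m → W)) :=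
    Finite.of_injective (fun e => (e : (Fin m → W) → (Fin m → W))) DFunLike.coe_injective
  have two : ∀ X : Fin m → W, X + X = 0 := fun X => by
    rw [← two_smul F X, show (2 : F) = 0 from CharTwo.two_eq_zero, zero_smul]
  have htt : t * t = 1 := LinearEquiv.ext fun X => by
    rw [LinearEquiv.mul_apply, ht, ht, map_add, root_sq hφv, add_zero, add_assoc, two, add_zero]
    rfl
  have haa : a * a = 1 := LinearEquiv.ext fun X => by
    obtain ⟨_, ⟨w, rfl⟩, hw⟩ := S.a_mem X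
    have h1 := eq_add_of_sub_eq hw.symm
    rw [LinearEquiv.mul_apply, h1, map_add, LinearEquiv.coe_coe, S.a_fix, h1, LinearEquiv.coe_coe,
      ← add_assoc, two, zero_add]
    rfl
  rcases TwoSq.dihedral htt haa with ⟨k, hk, hk1, hkt, hka⟩ | ⟨g, hg, hgg, hgt, hga⟩
  · exact absurd (S.centre_trivial hφ hφv htG ht hk hkt hka) hk1
  · exact ⟨t, g, htG, hg, ht, hgg, hgt, hga⟩

/-- Two swaps compose to a tensor product relating the two functionals. -/
lemma exists_pair [CharP F 2] (S : Setting G N x v₀ v φ₀ a) (hφ : φ ≠ 0) (hφv : φ ⬝ᵥ v = 0)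
    (hφ' : φ' ≠ 0) (hφ'v : φ' ⬝ᵥ v = 0) :
    ∃ (h : (Fin m → W) ≃ₗ[F] (Fin m → W)) (B : Matrix (Fin m) (Fin m) F) (k : W ≃ₗ[F] W) (μ : F),
      μ ≠ 0 ∧ B *ᵥ v = μ • v ∧ (∀ u w, h (ins u w) = ins (B *ᵥ u) (k w)) ∧
      (∀ X, h X - X ∈ M₀ x v₀ v) ∧ (∀ u, φ ⬝ᵥ (B *ᵥ u) = μ * (φ' ⬝ᵥ u)) ∧
      (∀ w, x (ins v₀ w) ∈ line W v → h (x (ins v₀ w)) = x (ins v₀ w)) ∧
      (∀ w, h (x (ins v₀ w)) ∈ (line W v₀).map x.toLinearMap) := by
  obtain ⟨t, g, htG, hg, ht, hgg, hgt, hga⟩ := S.exists_swap hφ hφv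
  obtain ⟨t', g', htG', hg', ht', hgg', hgt', hga'⟩ := S.exists_swap hφ' hφ'v
  -- the swaps exchange the lines
  have swap : ∀ {φ : Fin m → F} {t g : (Fin m → W) ≃ₗ[F] (Fin m → W)}, φ ≠ 0 →
      (∀ X, t X = X + root v φ LinearMap.id X) → g * t * g⁻¹ = a → g * a * g⁻¹ = t →
      (∀ w, g (ins v w) ∈ (line W v₀).map x.toLinearMap) ∧
        ∀ w, g (x (ins v₀ w)) ∈ line W v := by
    intro φ t g hφ ht h1 h2
    obtain ⟨y, hy⟩ := exists_dot_one hφ
    obtain ⟨y₀, hy₀⟩ := exists_dot_one S.hφ₀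
    rw [dotProduct_comm] at hy hy₀
    constructor <;> intro w
    · have h := congrFun (congrArg DFunLike.coe h1) (g (ins y w))
      rw [LinearEquiv.mul_apply, LinearEquiv.mul_apply,
        show g⁻¹ (g (ins y w)) = ins y w from g.symm_apply_apply _, ht, map_add, root_apply,
        ev_ins, hy, one_smul, LinearMap.id_apply] at h
      have := S.a_mem (g (ins y w))
      rwa [← h, add_sub_cancel_left] at this
    · have h := congrFun (congrArg DFunLike.coe h2) (g (x (ins y₀ w)))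
      rw [LinearEquiv.mul_apply, LinearEquiv.mul_apply,
        show g⁻¹ (g (x (ins y₀ w))) = x (ins y₀ w) from g.symm_apply_apply _, S.ha, map_add,
        show x⁻¹ (x (ins y₀ w)) = ins y₀ w from x.symm_apply_apply _, root_apply, ev_ins, hy₀,
        one_smul, LinearMap.id_apply, ht, add_right_inj] at h
      exact ⟨_, h.symm⟩
  obtain ⟨hl, hr⟩ := swap hφ ht hgt hga
  obtain ⟨hl', hr'⟩ := swap hφ' ht' hgt' hga'
  have hgG := S.closure_le htG hg
  have hgG' := S.closure_le htG' hg'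
  have hline : ∀ w, (g * g') (ins v w) ∈ line W v := fun w => by
    obtain ⟨_, ⟨w', rfl⟩, hw'⟩ := hl' w
    rw [LinearEquiv.mul_apply, show g' (ins v w) = x (ins v₀ w') from hw'.symm]
    exact hr w'
  obtain ⟨B, k, μ, hμ0, hμ, hBk⟩ := S.isT_line (G.mul_mem hgG hgG') hline
  refine ⟨g * g', B, k, μ, hμ0, hμ, hBk, fun X => ?_, fun u => ?_, fun w hw => ?_, fun w => ?_⟩
  · rw [LinearEquiv.mul_apply, ← sub_add_sub_cancel (g (g' X)) (g' X) X]
    exact add_mem (S.closure_sub ht hg _) (S.closure_sub ht' hg' _)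
  · obtain ⟨w₁, hw₁⟩ := exists_ne (0 : W)
    have hk1 : k w₁ ≠ 0 := fun h0 => hw₁ (k.injective (h0.trans (map_zero k).symm))
    have hconj : (g * g') * t' = t * (g * g') := by
      rw [← hga, ← hgt']; group
    have h := congrFun (congrArg DFunLike.coe hconj) (ins u w₁)
    rw [LinearEquiv.mul_apply (g * g') t', LinearEquiv.mul_apply t (g * g'), ht', ht, map_add,
      root_apply, root_apply, LinearMap.id_apply, LinearMap.id_apply, ev_ins, add_right_inj,
      map_smul, map_smul, hBk, hBk, hμ, ins_smul, smul_smul, ev_ins, map_smul, mul_comm] at h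
    exact (smul_left_injective F (fun h0 => hk1 (ins_injective S.hv (h0.trans (map_zero _).symm))))
      h.symm
  · obtain ⟨w', hw'⟩ := hw
    have hfix : ∀ {φ : Fin m → F} {t : (Fin m → W) ≃ₗ[F] (Fin m → W)}, φ ⬝ᵥ v = 0 →
        (∀ X, t X = X + root v φ LinearMap.id X) → t (x (ins v₀ w)) = x (ins v₀ w) :=
      fun hφv ht => by rw [← hw']; exact apply_t_line hφv ht w'
    rw [LinearEquiv.mul_apply, closure_fix hg' (hfix hφ'v ht') (S.a_fix w),
      closure_fix hg (hfix hφv ht) (S.a_fix w)]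
  · obtain ⟨w', hw'⟩ := hr' w
    rw [LinearEquiv.mul_apply, ← hw']
    exact hl w'

/-- The vectors moved by `B` lie on the line, once one vector of `W` is an eigenvector of `k`. -/
lemma pair_key (S : Setting G N x v₀ v φ₀ a) (hφv : φ ⬝ᵥ v = 0)
    {h : (Fin m → W) ≃ₗ[F] (Fin m → W)} {B : Matrix (Fin m) (Fin m) F} {k : W ≃ₗ[F] W} {μ : F}
    (hBk : ∀ u w, h (ins u w) = ins (B *ᵥ u) (k w)) (hM : ∀ X, h X - X ∈ M₀ x v₀ v)
    (hrel : ∀ u, φ ⬝ᵥ (B *ᵥ u) = μ * (φ' ⬝ᵥ u)) {c : F} {w : W} (hw : w ≠ 0) (hkw : k w = c • w) :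
    φ = (c * μ) • φ' ∧ ∀ u, c • (B *ᵥ u) - u ∈ F ∙ v := by
  have hmem : ∀ u, c • (B *ᵥ u) - u ∈ F ∙ v := fun u => by
    refine mem_span_of_mem S.hm S.hsel hw ?_
    have := hM (ins u w)
    rwa [hBk, hkw, map_smul, ← ins_smul, ← ins_sub] at this
  refine ⟨funext fun i => ?_, hmem⟩
  obtain ⟨d, hd⟩ := Submodule.mem_span_singleton.1 (hmem (Pi.single i 1))
  have := congrArg (φ ⬝ᵥ ·) hd
  simp only [dotProduct_smul, hφv, smul_zero, dotProduct_sub, hrel] at this
  simp [← mul_assoc] at this ⊢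
  linear_combination this

/-- The image of the line `v₀ ⊗ W` under `x`, contracted. -/
abbrev img (x : (Fin m → W) ≃ₗ[F] (Fin m → W)) (v₀ ψ : Fin m → F) : Module.End F W :=
  ev ψ ∘ₗ x.toLinearMap ∘ₗ ins (W := W) v₀

/-- Over two elements a pair of functionals gives an element of order three. -/
lemma pair_two [CharP F 2] (S : Setting G N x v₀ v φ₀ a) (hF : ∀ c : F, c = 0 ∨ c = 1)
    (hfull : Full G N) (hφ : φ ≠ 0) (hφ' : φ' ≠ 0) (hne : φ ≠ φ') (hφv : φ ⬝ᵥ v = 0)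
    (hφ'v : φ' ⬝ᵥ v = 0) {P : Module.End F W}
    (hP : P * img x v₀ φ = img x v₀ φ') : P * P + P + 1 = 0 := by
  classical
  have two : ∀ z : W, z + z = 0 := fun z => by
    rw [← two_smul F z, show (2 : F) = 0 from CharTwo.two_eq_zero, zero_smul]
  have hneg : ∀ z : W, -z = z := fun z => neg_eq_of_add_eq_zero_left (two z)
  have hinj : ∀ ψ, ψ ≠ 0 → ∀ w, img x v₀ ψ w = 0 → w = 0 :=
    fun ψ hψ w hw => hfull x S.hx S.hxN v₀ ψ S.hv₀ hψ w hw
  obtain ⟨h, B, k, μ, hμ0, hμ, hBk, hM, hrel, -, -⟩ := S.exists_pair hφ hφv hφ' hφ'v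
  have hμ1 : μ = 1 := (hF μ).resolve_left hμ0
  obtain ⟨w₁, hw₁⟩ := exists_ne (0 : W)
  have hnos : ∀ s, φ ⬝ᵥ s = 0 → φ' ⬝ᵥ s = 0 → s ∈ F ∙ v := fun s hs hs' => by
    by_contra hsv
    obtain ⟨c, hc0, hc⟩ := S.scalar_k hφ hφv hBk hM hs (by rw [hrel, hs', mul_zero]) hsv
    have := (S.pair_key hφv hBk hM hrel hw₁ (hc w₁)).1
    rw [(hF c).resolve_left hc0, hμ1, one_mul, one_smul] at this
    exact hne this
  have hspan : ∀ {φ φ' : Fin m → F}, φ ≠ 0 → φ' ≠ 0 → φ ≠ φ' → ∃ u, φ ⬝ᵥ u = 1 ∧ φ' ⬝ᵥ u = 0 := by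
    intro φ φ' h1 _ h3
    obtain ⟨u, hu, hu'⟩ := exists_perp (x := φ) (S := F ∙ φ') fun hmem => by
      obtain ⟨c, hc⟩ := Submodule.mem_span_singleton.1 hmem
      rcases hF c with rfl | rfl
      · exact h1 (by rw [← hc, zero_smul])
      · exact h3 (by rw [← hc, one_smul])
    rw [dotProduct_comm] at hu
    exact ⟨u, hu, by rw [dotProduct_comm]; exact hu' φ' (Submodule.mem_span_singleton_self φ')⟩
  obtain ⟨u₁, hu₁, hu₁'⟩ := hspan hφ hφ' hne
  obtain ⟨u₂, hu₂, hu₂'⟩ := hspan hφ' hφ hne.symm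
  set χ := φ' ᵥ* B
  set A := χ ⬝ᵥ u₁
  set C := χ ⬝ᵥ u₂
  have hχ : ∀ u, χ ⬝ᵥ u = A * (φ ⬝ᵥ u) + C * (φ' ⬝ᵥ u) := fun u => by
    obtain ⟨d, hd⟩ := Submodule.mem_span_singleton.1
      (hnos (u - (φ ⬝ᵥ u) • u₁ - (φ' ⬝ᵥ u) • u₂)
        (by simp [dotProduct_sub, dotProduct_smul, hu₁, hu₂'])
        (by simp [dotProduct_sub, dotProduct_smul, hu₁', hu₂]))
    have h0 : χ ⬝ᵥ v = 0 := by
      rw [← dotProduct_mulVec, hμ, hμ1, one_smul, hφ'v]
    have := congrArg (χ ⬝ᵥ ·) hd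
    simp only [dotProduct_smul, h0, dotProduct_sub, smul_eq_mul] at this
    linear_combination -this
  have hev : ∀ p r : W,
      P (k r - p) = k (A • p + C • r) - r := fun p r => by
    set X := ins u₁ p + ins u₂ r
    obtain ⟨b, hb, c, hc, hbc⟩ := Submodule.mem_sup.1 (hM X)
    obtain ⟨_, ⟨w, rfl⟩, rfl⟩ := hc
    have e1 := congrArg (ev φ) hbc
    have e2 := congrArg (ev φ') hbc
    rw [map_add, line_le_ker hφv hb, zero_add] at e1
    rw [map_add, line_le_ker hφ'v hb, zero_add] at e2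
    simp only [X, map_sub, map_add, hBk, ev_ins, hrel, hμ1, hu₁, hu₁', hu₂, hu₂', mul_zero,
      mul_one, zero_smul, one_smul, zero_add, add_zero] at e1 e2
    rw [← e1, show φ' ⬝ᵥ B *ᵥ u₁ = A from dotProduct_mulVec _ _ _,
      show φ' ⬝ᵥ B *ᵥ u₂ = C from dotProduct_mulVec _ _ _] at *
    rw [map_add, map_smul, map_smul, ← e2]
    exact LinearMap.congr_fun hP w
  have hP0 : ∀ p, P p = A • k p := fun p => by
    have := hev p 0
    simp only [map_zero, zero_sub, map_neg, smul_zero, add_zero, sub_zero, map_smul] at this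
    rwa [hneg] at this
  have hA : A = 1 := (hF A).resolve_left fun h0 => hw₁ (hinj φ' hφ' w₁ (by
    rw [← hP, Module.End.mul_apply, hP0, h0, zero_smul]))
  have hPk : ∀ p, P p = k p := fun p => by rw [hP0, hA, one_smul]
  have hC : ∀ r, k (k r) = C • k r + r := fun r => by
    have := hev 0 r
    rw [sub_zero, hPk, smul_zero, zero_add, map_smul, sub_eq_add_neg, hneg] at this
    exact this
  have hC1 : C = 1 := (hF C).resolve_left fun h0 => by
    -- a fixed vector of `k`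
    obtain ⟨z, hz0, hz⟩ : ∃ z, z ≠ 0 ∧ k z = z := by
      by_cases hk : k w₁ + w₁ = 0
      · exact ⟨w₁, hw₁, by rw [← hneg w₁]; exact eq_neg_of_add_eq_zero_left (by rwa [hneg])⟩
      · exact ⟨_, hk, by rw [map_add, hC, h0, zero_smul, zero_add, add_comm]⟩
    have hsurj : Function.Surjective (img x v₀ φ) := LinearMap.injective_iff_surjective.1
      ((injective_iff_map_eq_zero _).2 (hinj φ hφ))
    obtain ⟨w, hw⟩ := hsurj z
    have hw' : img x v₀ φ' w = z := by rw [← hP, Module.End.mul_apply, hw, hPk, hz]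
    refine hz0 ?_
    have hsum : img x v₀ (φ + φ') w = 0 := by
      have hadd : ∀ X : Fin m → W, ev (φ + φ') X = ev φ X + ev φ' X := fun X => by
        simp [add_smul, Finset.sum_add_distrib]
      show ev (φ + φ') (x (ins v₀ w)) = 0
      rw [hadd, show ev φ (x (ins v₀ w)) = z from hw, show ev φ' (x (ins v₀ w)) = z from hw', two]
    have : w = 0 := hinj _ (fun h0 => hne (funext fun i => by
      have := congrFun h0 i
      simp only [Pi.add_apply, Pi.zero_apply] at this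
      rw [CharTwo.add_eq_zero] at this; exact this)) w hsum
    rw [← hw, this, map_zero]
  refine LinearMap.ext fun r => ?_
  simp only [LinearMap.add_apply, Module.End.mul_apply, Module.End.one_apply, LinearMap.zero_apply,
    hPk, hC, hC1, one_smul]
  rw [add_assoc, two]

end Setting

/-- The theorem. -/
theorem split_le (hm : 3 ≤ m) (hG : HasFactor G) (hP : NoPar G)
    (hB1 : ∀ g ∈ G, ∀ v v' : Fin m → F, v ≠ 0 → v' ≠ 0 →
      (∀ w, g (ins v w) ∈ line W v') → g ∈ N)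
    (hB2 : ∀ x ∈ G, x ∉ N → ∀ φ : Fin m → F, φ ≠ 0 → ∃ u : Fin m → F, u ≠ 0 ∧ φ ⬝ᵥ u = 0 ∧
      ∃ t ∈ G, (∀ X, t X = X + root u φ LinearMap.id X) ∧ x⁻¹ * t * x ∉ N) : G ≤ N := by
  by_contra hne
  obtain ⟨x, hx, hxN, v₀, v, hv₀, hv, hsel, hcase⟩ := exists_selected (by omega) hne hB2
  obtain ⟨φ₀, hφ₀, hφ₀v, -⟩ := exists_perp_two hm v₀ v₀
  obtain ⟨t₀, ht₀G, ht₀⟩ := hG v₀ φ₀ hφ₀v
  set a := x * t₀ * x⁻¹ with hadef
  have ha : ∀ X, a X = X + x (root v₀ φ₀ LinearMap.id (x⁻¹ X)) := fun X => by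
    rw [hadef, LinearEquiv.mul_apply, LinearEquiv.mul_apply, ht₀, map_add,
      show x (x⁻¹ X) = X from x.apply_symm_apply X]
  have haG : a ∈ G := G.mul_mem (G.mul_mem hx ht₀G) (G.inv_mem hx)
  have S : Setting G N x v₀ v φ₀ a := ⟨hm, hG, hP, hB1, hx, hxN, hv₀, hv, hsel, hφ₀, hφ₀v, haG, ha⟩
  obtain ⟨w₁, hw₁⟩ := exists_ne (0 : W)
  obtain ⟨φ, hφ, hφv, -⟩ := exists_perp_two hm v v
  obtain ⟨e, he⟩ := exists_dot_one hφ
  obtain ⟨φ', hφ', hφ'v, hφ'e⟩ := exists_perp_two hm v e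
  rw [dotProduct_comm] at he
  obtain ⟨p, hpF⟩ := CharP.exists F
  haveI := hpF
  haveI : Fact p.Prime := ⟨CharP.char_is_prime F p⟩
  rcases eq_or_ne p 2 with rfl | hp
  swap
  · obtain ⟨t, htG, ht⟩ := hG v φ hφv
    have ht1 : t ≠ 1 := fun h0 => by
      have := ht (ins e w₁)
      rw [h0, root_apply, ev_ins, he, one_smul] at this
      exact hw₁ (ins_injective hv ((add_eq_left.1 this.symm).trans (map_zero _).symm))
    let D : TwoSq.Pair F (Fin m → W) :=
      { t := t, a := a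
        T := root v φ LinearMap.id
        A := x.toLinearMap ∘ₗ root v₀ φ₀ LinearMap.id ∘ₗ x.symm.toLinearMap
        t_eq := LinearMap.ext fun X => by simpa using ht X
        a_eq := LinearMap.ext fun X => by simp [ha]
        TT := LinearMap.ext fun X => by simpa using root_sq hφv LinearMap.id X
        AA := LinearMap.ext fun X => by
          simp only [Module.End.mul_apply, LinearMap.comp_apply, LinearEquiv.coe_coe,
            LinearEquiv.symm_apply_apply, LinearMap.zero_apply]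
          simp [ev_ins, hφ₀v, -ev_apply] }
    haveI : NeZero m := ⟨by omega⟩
    obtain ⟨z, hz, hz1, hzt, hza⟩ := D.exists_central p hp ht1
    exact hz1 (S.centre_trivial hφ hφv htG ht hz hzt hza)
  obtain ⟨h, B, k, μ, hμ0, hμ, hBk, hM, hrel, hfix, hmap⟩ := S.exists_pair hφ hφv hφ' hφ'v
  have hind : ∀ c : F, φ ≠ c • φ' := fun c h0 => by
    rw [h0, smul_dotProduct, hφ'e, smul_zero] at he
    exact zero_ne_one he
  rcases hcase with hfull | ⟨w, hw, hD⟩
  swap
  · -- the two lines meet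
    obtain ⟨w', hw'⟩ := hD
    have hw'0 : w' ≠ 0 := fun h0 => hw (ins_injective hv₀ (x.injective (by
      rw [← hw', h0, map_zero, map_zero, map_zero])))
    have h1 := hfix w ⟨w', hw'⟩
    rw [← hw', hBk, hμ, ins_smul, ← map_smul] at h1
    exact hind _ (S.pair_key hφv hBk hM hrel hw'0 (c := μ⁻¹)
      (by rw [eq_inv_smul_iff₀ hμ0]; exact ins_injective hv h1)).1
  by_cases hF : ∀ c : F, c = 0 ∨ c = 1
  · -- two elements
    classical
    set α := Setting.img (F := F) x v₀ with hα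
    have key : ∀ {φ φ' : Fin m → F} {P : Module.End F W}, φ ≠ 0 → φ' ≠ 0 → φ ≠ φ' →
        P * α φ = α φ' → P * P + P + 1 = 0 := by
      intro φ φ' P h1 h2 h3 h4
      obtain ⟨v', hv', hv'1, hv'2⟩ := exists_perp_two hm φ φ'
      rw [dotProduct_comm] at hv'1 hv'2
      refine (Setting.pair_two (v := v') ⟨hm, hG, hP, hB1, hx, hxN, hv₀, hv', fun ψ hψ _ w hw => ?_,
        hφ₀, hφ₀v, haG, ha⟩ hF hfull h1 h2 h3 hv'1 hv'2 h4)
      rw [hfull x hx hxN v₀ ψ hv₀ hψ w hw, map_zero, map_zero]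
      exact zero_mem _
    set e₀ : Fin m → F := Pi.single ⟨0, by omega⟩ 1
    set e₁ : Fin m → F := Pi.single ⟨1, by omega⟩ 1
    set e₂ : Fin m → F := Pi.single ⟨2, by omega⟩ 1
    have n0 : e₀ ≠ 0 := by simp [e₀]
    have n1 : e₁ ≠ 0 := by simp [e₁]
    have n2 : e₂ ≠ 0 := by simp [e₂]
    have n01 : e₀ ≠ e₁ := fun h0 => by simpa [e₀, e₁, Pi.single_apply, Fin.ext_iff] using congrFun h0 ⟨0, by omega⟩
    have n02 : e₀ ≠ e₂ := fun h0 => by simpa [e₀, e₂, Pi.single_apply, Fin.ext_iff] using congrFun h0 ⟨0, by omega⟩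
    have n12 : e₁ ≠ e₂ := fun h0 => by simpa [e₁, e₂, Pi.single_apply, Fin.ext_iff] using congrFun h0 ⟨1, by omega⟩
    have n3 : e₁ + e₂ ≠ 0 := fun h0 => by
      simpa [e₁, e₂, Pi.single_apply, Fin.ext_iff] using congrFun h0 ⟨1, by omega⟩
    have n03 : e₀ ≠ e₁ + e₂ := fun h0 => by
      simpa [e₀, e₁, e₂, Pi.single_apply, Fin.ext_iff] using congrFun h0 ⟨0, by omega⟩
    have hadd : α (e₁ + e₂) = α e₁ + α e₂ := LinearMap.ext fun w => by
      simp [α, Setting.img, add_smul, Finset.sum_add_distrib]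
    have hαinj : ∀ ψ, ψ ≠ 0 → ∀ w, α ψ w = 0 → w = 0 :=
      fun ψ hψ w hw => hfull x hx hxN v₀ ψ hv₀ hψ w hw
    obtain ⟨a₀, ha₀⟩ : IsUnit (α e₀) := (Module.End.isUnit_iff _).2
      ⟨(injective_iff_map_eq_zero _).2 (hαinj e₀ n0), LinearMap.injective_iff_surjective.1
        ((injective_iff_map_eq_zero _).2 (hαinj e₀ n0))⟩
    set ω : Module.End F W := α e₁ * (↑a₀⁻¹ : Module.End F W) with hω
    set η : Module.End F W := α e₂ * (↑a₀⁻¹ : Module.End F W) with hη
    have hω0 : ω * α e₀ = α e₁ := by rw [hω, mul_assoc, ← ha₀, Units.inv_mul, mul_one]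
    have hη0 : η * α e₀ = α e₂ := by rw [hη, mul_assoc, ← ha₀, Units.inv_mul, mul_one]
    have two : ∀ z : Module.End F W, z + z = 0 := fun z => by
      rw [← two_smul F z, show (2 : F) = 0 from CharTwo.two_eq_zero, zero_smul]
    have hsq : ∀ z : Module.End F W, z * z + z + 1 = 0 → z * z = z + 1 := fun z hz => by
      rw [add_assoc] at hz
      rw [eq_neg_of_add_eq_zero_left hz, neg_eq_of_add_eq_zero_left (two _)]
    have hωω := hsq _ (key n0 n1 n01 hω0)
    have hηη := hsq _ (key n0 n2 n02 hη0)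
    have h3 := key (P := ω + η) n0 n3 n03 (by rw [add_mul, hω0, hη0, hadd])
    have hinv : (ω + 1) * ω = 1 := by rw [add_mul, one_mul, hωω, add_comm ω 1, add_assoc, two, add_zero]
    have h4 := key (P := η * (ω + 1)) n1 n2 n12 (by
      rw [← hω0, ← mul_assoc, mul_assoc η, hinv, mul_one, hη0])
    have hωη : ω * η = η * ω + 1 := by
      have e : ω * η + (η * ω + 1) = 0 := by
        rw [← h3]
        simp only [mul_add, add_mul, hωω, hηη]
        have h2 : (ω + ω) + (η + η) + (1 + 1) = 0 := by simp [two]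
        rw [← add_zero (ω * η + (η * ω + 1)), ← h2]
        abel
      rw [eq_neg_of_add_eq_zero_left e, neg_eq_of_add_eq_zero_left (two _)]
    have hfin : η * ω + (ω + 1) = 0 := by
      have hr : ∀ y, ω * (η * y) = η * (ω * y) + y := fun y => by
        rw [← mul_assoc, hωη, add_mul, one_mul, mul_assoc]
      have hr' : ∀ y, η * (η * y) = η * y + y := fun y => by
        rw [← mul_assoc, hηη, add_mul, one_mul]
      rw [← h4]
      simp only [mul_add, add_mul, mul_one, mul_assoc, hωη, hωω, hηη, hr, hr']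
      have h2 : (η + η) + (η + η) + (η * ω + η * ω) + (η * ω + η * ω) + (ω + ω) + (1 + 1)
          = 0 := by simp [two]
      rw [← add_zero (η * ω + (ω + 1)), ← h2]
      abel
    have hηω : η = ω := by
      have h5 : (η + ω) * ω = 0 := by rw [add_mul, hωω]; exact hfin
      have h6 : η + ω = 0 := by
        rw [← mul_one (η + ω), ← hinv, show (ω + 1) * ω = ω * (ω + 1) by
          rw [add_mul, mul_add, one_mul, mul_one], ← mul_assoc, h5, zero_mul]
      rw [eq_neg_of_add_eq_zero_left h6, neg_eq_of_add_eq_zero_left (two _)]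
    refine hw₁ (hαinj _ n3 w₁ ?_)
    rw [hadd, ← hη0, ← hω0, hηω, two, LinearMap.zero_apply]
  -- a larger field
  push Not at hF
  obtain ⟨l, hl0, hl1⟩ := hF
  have hlφ : l • φ ≠ 0 := smul_ne_zero hl0 hφ
  obtain ⟨h, B, k, μ, hμ0, hμ, hBk, hM, hrel, -, hmap⟩ :=
    S.exists_pair hφ hφv hlφ (by rw [smul_dotProduct, hφv, smul_zero])
  obtain ⟨s, hs, hsv⟩ := exists_perp_notin' hm φ hv
  obtain ⟨c, hc0, hc⟩ := S.scalar_k hφ hφv hBk hM hs
    (by rw [hrel, smul_dotProduct, hs, smul_zero, mul_zero]) hsv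
  obtain ⟨hφeq, hmem⟩ := S.pair_key hφv hBk hM hrel hw₁ (hc w₁)
  have hν : c * μ ≠ 1 := fun h0 => by
    rw [h0, one_smul] at hφeq
    have := congrArg (e ⬝ᵥ ·) hφeq
    simp only [dotProduct_smul, smul_eq_mul] at this
    rw [dotProduct_comm e φ, he, mul_one] at this
    exact hl1 this.symm
  obtain ⟨ψ, hψ⟩ := exists_dot_one hv
  set ρ := ψ ᵥ* (c • B) - ψ with hρ
  have hρv : ρ ⬝ᵥ v = c * μ - 1 := by
    rw [hρ, sub_dotProduct, ← dotProduct_mulVec, Matrix.smul_mulVec, hμ, smul_smul,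
      dotProduct_smul, hψ, smul_eq_mul, mul_one]
  have hρ0 : ρ ≠ 0 := fun h0 => by
    rw [h0, zero_dotProduct] at hρv; exact hν (sub_eq_zero.1 hρv.symm)
  have hshift : ∀ u w, h (ins u w) - ins u w = ins v ((ρ ⬝ᵥ u) • w) := fun u w => by
    obtain ⟨d, hd⟩ := Submodule.mem_span_singleton.1 (hmem u)
    have hd' : ρ ⬝ᵥ u = d := by
      rw [hρ, sub_dotProduct, ← dotProduct_mulVec, ← dotProduct_sub, Matrix.smul_mulVec, ← hd,
        dotProduct_smul, hψ, smul_eq_mul, mul_one]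
    rw [hBk, hc, map_smul, ← ins_smul, ← ins_sub, ← hd, ins_smul, hd', map_smul]
  have hall : ∀ X, h X - X = ins v (ev ρ X) := fun X => by
    conv_lhs => rw [eq_sum_ins (F := F) X, map_sum, ← Finset.sum_sub_distrib]
    simp only [hshift]
    rw [← map_sum]
    congr 1
    simp
  refine hw₁ (hfull x hx hxN v₀ ρ hv₀ hρ0 w₁ ?_)
  have h1 : h (x (ins v₀ w₁)) - x (ins v₀ w₁) ∈ (line W v₀).map x.toLinearMap :=
    sub_mem (hmap w₁) ⟨_, ⟨w₁, rfl⟩, rfl⟩
  obtain ⟨_, ⟨w', rfl⟩, hw'⟩ := h1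
  rw [hall] at hw'
  have hw'0 : w' = 0 := hfull x hx hxN v₀ φ hv₀ hφ w' (by
    rw [show x (ins v₀ w') = _ from hw', ev_ins, hφv, zero_smul])
  rw [hw'0, map_zero, map_zero] at hw'
  exact ins_injective hv (hw'.symm.trans (map_zero _).symm)

end Cfsg.Agent.MaxSub.TensorPow
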